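import Mathlib

set_option autoImplicit false

namespace CfsgLib.Metacyclic.Form

variable {N : ℕ} [NeZero N]

/-- The alternating form on `(ℤ/N)^2`. -/
def det (u w : ZMod N × ZMod N) : ZMod N := u.1 * w.2 - u.2 * w.1

theorem det_add_left (u v w : ZMod N × ZMod N) : det (u + v) w = det u w + det v w := by
  simp only [det, Prod.fst_add, Prod.snd_add]; ring

theorem det_add_right (u v w : ZMod N × ZMod N) : det u (v + w) = det u v + det u w := by
  simp only [det, Prod.fst_add, Prod.snd_add]; ring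

theorem det_smul_left (c : ZMod N) (u w : ZMod N × ZMod N) : det (c • u) w = c * det u w := by
  simp only [det, Prod.smul_fst, Prod.smul_snd, smul_eq_mul]; ring

theorem det_smul_right (c : ZMod N) (u w : ZMod N × ZMod N) : det u (c • w) = c * det u w := by
  simp only [det, Prod.smul_fst, Prod.smul_snd, smul_eq_mul]; ring

theorem det_self (u : ZMod N × ZMod N) : det u u = 0 := by simp only [det]; ring

theorem det_swap (u w : ZMod N × ZMod N) : det u w = - det w u := by simp only [det]; ring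

theorem eq_zero_of_det (u : ZMod N × ZMod N) (h : ∀ w, det u w = 0) : u = 0 := by
  have h1 := h (0, 1)
  have h2 := h (1, 0)
  simp [det] at h1 h2
  exact Prod.ext h1 h2

theorem smul_mem {U : AddSubgroup (ZMod N × ZMod N)} (c : ZMod N) {u : ZMod N × ZMod N} (hu : u ∈ U) :
    c • u ∈ U := by
  have : c • u = c.val • u := by
    rw [← Nat.cast_smul_eq_nsmul (ZMod N), ZMod.natCast_zmod_val]
  rw [this]
  exact U.nsmul_mem hu _

/-- The orthogonal of a subgroup. -/
def perp (U : AddSubgroup (ZMod N × ZMod N)) : AddSubgroup (ZMod N × ZMod N) where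
  carrier := {w | ∀ u ∈ U, det u w = 0}
  zero_mem' := fun u _ => by simp [det]
  add_mem' := fun {a b} ha hb u hu => by rw [det_add_right, ha u hu, hb u hu, add_zero]
  neg_mem' := fun {a} ha u hu => by
    have := ha u hu
    simp only [det, Prod.fst_neg, Prod.snd_neg] at this ⊢
    linear_combination (-1 : ZMod N) * this

theorem mem_perp {U : AddSubgroup (ZMod N × ZMod N)} {w : ZMod N × ZMod N} :
    w ∈ perp U ↔ ∀ u ∈ U, det u w = 0 := Iff.rfl

theorem perp_anti {U V : AddSubgroup (ZMod N × ZMod N)} (h : U ≤ V) : perp V ≤ perp U :=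
  fun _ hw u hu => hw u (h hu)

theorem le_perp_perp (U : AddSubgroup (ZMod N × ZMod N)) : U ≤ perp (perp U) :=
  fun u hu w hw => by rw [det_swap, hw u hu, neg_zero]

/-- Nondegeneracy by orthogonality of characters. -/
theorem card_mul_card_perp (U : AddSubgroup (ZMod N × ZMod N)) :
    Nat.card U * Nat.card (perp U) = Nat.card (ZMod N × ZMod N) := by
  classical
  let ψ : AddChar (ZMod N) ℂ := ZMod.stdAddChar
  have hψinj : Function.Injective ψ := ZMod.injective_stdAddChar
  have h1 : ∀ u : ZMod N × ZMod N,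
      ∑ w : ZMod N × ZMod N, ψ (det u w) = if u = 0 then (Nat.card (ZMod N × ZMod N) : ℂ) else 0 := by
    intro u
    let χ : AddChar (ZMod N × ZMod N) ℂ :=
      ψ.compAddMonoidHom { toFun := fun w => det u w, map_zero' := by simp [det], map_add' := det_add_right u }
    split_ifs with hu
    · subst hu
      simp [det]
    · refine AddChar.sum_eq_zero_of_ne_one (ψ := χ) fun hχ => hu (eq_zero_of_det u fun w => hψinj ?_)
      have := DFunLike.congr_fun hχ w
      simpa [χ] using this
  have h2 : ∀ w : ZMod N × ZMod N,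
      ∑ u : U, ψ (det u w) = if w ∈ perp U then (Nat.card U : ℂ) else 0 := by
    intro w
    let χ : AddChar U ℂ :=
      ψ.compAddMonoidHom { toFun := fun u => det u w, map_zero' := by simp [det], map_add' := fun a b => det_add_left (a : ZMod N × ZMod N) b w }
    split_ifs with hw
    · simp [fun u : U => hw u u.2]
    · refine AddChar.sum_eq_zero_of_ne_one (ψ := χ) fun hχ => hw fun u hu => hψinj ?_
      have := DFunLike.congr_fun hχ ⟨u, hu⟩
      simpa [χ] using this
  have key : (∑ u : U, ∑ w : ZMod N × ZMod N, ψ (det u w)) = ∑ w : ZMod N × ZMod N, ∑ u : U, ψ (det u w) :=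
    Finset.sum_comm
  simp only [h1, h2] at key
  have h0 : (∑ x : U, if (x : ZMod N × ZMod N) = 0 then (Nat.card (ZMod N × ZMod N) : ℂ) else 0) =
      (Nat.card (ZMod N × ZMod N) : ℂ) := by
    refine (Fintype.sum_eq_single (0 : U) fun b hb => ?_).trans ?_
    · exact if_neg fun h => hb (Subtype.ext h)
    · simp
  rw [h0] at key
  simp only [ZeroMemClass.coe_zero, if_true, ← Finset.sum_filter, Finset.sum_const, nsmul_eq_mul] at key
  rw [← Fintype.card_subtype, ← Nat.card_eq_fintype_card] at key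
  have hperp : Nat.card {x // x ∈ perp U} = Nat.card (perp U) := rfl
  rw [hperp, ← Nat.cast_mul, Nat.cast_inj] at key
  rw [key, mul_comm]

theorem perp_perp (U : AddSubgroup (ZMod N × ZMod N)) : perp (perp U) = U := by
  refine (AddSubgroup.eq_of_le_of_card_ge (le_perp_perp U) (le_of_eq ?_)).symm
  have h1 := card_mul_card_perp (perp U)
  rw [← card_mul_card_perp U, mul_comm (Nat.card U)] at h1
  exact Nat.eq_of_mul_eq_mul_left Nat.card_pos h1

variable {p n : ℕ}

theorem exists_pow_mul (hp : p.Prime) (x : ZMod (p ^ n)) (hx : x ≠ 0) :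
    ∃ k < n, ∃ y : ZMod (p ^ n), IsUnit y ∧ x = (p : ZMod (p ^ n)) ^ k * y := by
  haveI : NeZero (p ^ n) := ⟨pow_ne_zero _ hp.ne_zero⟩
  have hv : x.val ≠ 0 := by rwa [Ne, ZMod.val_eq_zero]
  obtain ⟨k, y, hy, hxy⟩ := Nat.exists_eq_pow_mul_and_not_dvd hv p hp.one_lt.ne'
  have hk : k < n := by
    have h1 : p ^ k ≤ x.val := Nat.le_of_dvd (Nat.pos_of_ne_zero hv) ⟨y, hxy⟩
    exact (Nat.pow_lt_pow_iff_right hp.one_lt).mp (h1.trans_lt x.val_lt)
  refine ⟨k, hk, y, (ZMod.isUnit_iff_coprime _ _).mpr ?_, ?_⟩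
  · exact (hp.coprime_iff_not_dvd.mpr hy).symm.pow_right n
  · rw [← ZMod.natCast_zmod_val x, hxy]; push_cast; rfl

theorem pow_mul_eq_zero (hp : p.Prime) {k : ℕ} (hk : k ≤ n) (x : ZMod (p ^ n)) :
    (p : ZMod (p ^ n)) ^ k * x = 0 ↔ (p : ZMod (p ^ n)) ^ (n - k) ∣ x := by
  haveI : NeZero (p ^ n) := ⟨pow_ne_zero _ hp.ne_zero⟩
  have hpn : (p : ZMod (p ^ n)) ^ k * (p : ZMod (p ^ n)) ^ (n - k) = 0 := by
    rw [← pow_add, Nat.add_sub_cancel' hk, ← Nat.cast_pow, ZMod.natCast_self]
  constructor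
  · intro h
    rw [← ZMod.natCast_zmod_val x, ← Nat.cast_pow, ← Nat.cast_mul, ZMod.natCast_eq_zero_iff] at h
    have h2 : p ^ k * p ^ (n - k) ∣ p ^ k * x.val := by rwa [← pow_add, Nat.add_sub_cancel' hk]
    obtain ⟨t, ht⟩ := (mul_dvd_mul_iff_left (pow_ne_zero k hp.ne_zero)).mp h2
    exact ⟨t, by rw [← ZMod.natCast_zmod_val x, ht]; push_cast; rfl⟩
  · rintro ⟨t, rfl⟩
    rw [← mul_assoc, hpn, zero_mul]

/-- A subgroup which is not totally isotropic contains its orthogonal. -/
theorem perp_le_of_not_le (hp : p.Prime) [NeZero (p ^ n)] (U : AddSubgroup (ZMod (p ^ n) × ZMod (p ^ n)))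
    (h : ¬ U ≤ perp U) : perp U ≤ U := by
  classical
  set P : ZMod (p ^ n) := (p : ZMod (p ^ n)) with hP
  -- the least valuation `e`
  have hex : ∃ k, k < n ∧ ∃ w ∈ U, ¬ (P ^ (k + 1) ∣ w.1 ∧ P ^ (k + 1) ∣ w.2) := by
    by_contra! hc
    apply h
    intro w hw u hu
    rcases Nat.eq_zero_or_pos n with hn | hn
    · haveI : Subsingleton (ZMod (p ^ n)) := by subst hn; simpa using (inferInstance : Subsingleton (ZMod 1))
      exact Subsingleton.elim _ _
    · obtain ⟨h1, h2⟩ := hc (n - 1) (by omega) w hw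
      have hz : P ^ (n - 1 + 1) = 0 := by
        rw [hP, show n - 1 + 1 = n by omega, ← Nat.cast_pow, ZMod.natCast_self]
      rw [hz, zero_dvd_iff] at h1 h2
      simp [det, h1, h2]
  set e := Nat.find hex with he
  obtain ⟨hen, u, hu, hu'⟩ := Nat.find_spec hex
  have hdiv : ∀ w ∈ U, P ^ e ∣ w.1 ∧ P ^ e ∣ w.2 := by
    intro w hw
    rcases Nat.eq_zero_or_pos e with h0 | h0
    · rw [h0, pow_zero]; exact ⟨one_dvd _, one_dvd _⟩
    · have := Nat.find_min hex (show e - 1 < e by omega)
      push Not at this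
      have := this (by omega) w hw
      rwa [show e - 1 + 1 = e by omega] at this
  obtain ⟨⟨x, hx⟩, ⟨y, hy⟩⟩ := hdiv u hu
  -- unimodular direction of `u`
  have hunit : IsUnit x ∨ IsUnit y := by
    by_contra! hc
    apply hu'
    have : ∀ z : ZMod (p ^ n), ¬ IsUnit z → P ∣ z := by
      intro z hz
      rcases eq_or_ne z 0 with rfl | hz0
      · exact dvd_zero _
      obtain ⟨k, -, t, ht, rfl⟩ := exists_pow_mul hp z hz0
      rcases k with _ | k
      · exact absurd (by simpa using ht) hz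
      · exact dvd_mul_of_dvd_left (dvd_pow_self _ (by omega)) _
    rw [hx, hy, pow_succ]
    exact ⟨mul_dvd_mul_left _ (this x hc.1), mul_dvd_mul_left _ (this y hc.2)⟩
  obtain ⟨f, hf⟩ : ∃ f : ZMod (p ^ n) × ZMod (p ^ n), det (x, y) f = 1 := by
    rcases hunit with hh | hh
    · obtain ⟨x', rfl⟩ := hh
      exact ⟨(0, ↑x'⁻¹), by simp [det]⟩
    · obtain ⟨y', rfl⟩ := hh
      exact ⟨(-↑y'⁻¹, 0), by simp [det]⟩
  set u0 : ZMod (p ^ n) × ZMod (p ^ n) := (x, y) with hu0
  have hue : u = P ^ e • u0 := by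
    ext <;> simp [hu0, hx, hy]
  have hdec : ∀ w : ZMod (p ^ n) × ZMod (p ^ n), w = det w f • u0 + det u0 w • f := by
    intro w
    ext <;> simp only [det, hu0, Prod.fst_add, Prod.snd_add, Prod.smul_fst, Prod.smul_snd, smul_eq_mul] at hf ⊢
    · linear_combination (-w.1) * hf
    · linear_combination (-w.2) * hf
  -- an element `d • f` of `U` with `P ^ e * d ≠ 0`
  obtain ⟨d, hdU, hd⟩ : ∃ d, d • f ∈ U ∧ P ^ e * d ≠ 0 := by
    by_contra! hc
    apply h
    intro w hw v hv
    have hcoord : ∀ z ∈ U, P ^ e ∣ det z f ∧ P ^ e * det u0 z = 0 := by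
      intro z hz
      obtain ⟨⟨z1, hz1⟩, ⟨z2, hz2⟩⟩ := hdiv z hz
      have hd1 : P ^ e ∣ det z f := by
        refine ⟨det (z1, z2) f, ?_⟩
        simp only [det, hz1, hz2]; ring
      refine ⟨hd1, hc _ ?_⟩
      obtain ⟨c, hc1⟩ := hd1
      have h3 : det u0 z • f = z - c • u := by
        rw [hue, smul_smul, mul_comm c, ← hc1, eq_sub_iff_add_eq, add_comm]
        exact (hdec z).symm
      rw [h3]
      exact U.sub_mem hz (smul_mem c hu)
    obtain ⟨⟨c1, hc1⟩, hv2⟩ := hcoord v hv
    obtain ⟨⟨c2, hc2⟩, hw2⟩ := hcoord w hw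
    rw [hdec v, hdec w]
    simp only [det_add_left, det_add_right, det_smul_left, det_smul_right, det_self, hf, mul_zero, mul_one,
      add_zero, zero_add, det_swap f u0, hc1, hc2]
    linear_combination c1 * hw2 - c2 * hv2
  have hd0 : d ≠ 0 := fun h0 => hd (by rw [h0, mul_zero])
  obtain ⟨k, hkn, d', hd', rfl⟩ := exists_pow_mul hp d hd0
  have hek : e + k < n := by
    by_contra! hle
    apply hd
    rw [← mul_assoc, ← pow_add, show e + k = n + (e + k - n) by omega, pow_add, hP, ← Nat.cast_pow p n,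
      ZMod.natCast_self, zero_mul, zero_mul]
  intro z hz
  have hy0 : P ^ e * det u0 z = 0 := by
    have := hz u hu
    rwa [hue, det_smul_left] at this
  have hx0 : P ^ k * det z f = 0 := by
    have := hz _ hdU
    rw [det_smul_left, det_swap] at this
    obtain ⟨d'', rfl⟩ := hd'
    have : P ^ k * (d'' : ZMod (p ^ n)) * det z f = 0 := by linear_combination (-1 : ZMod (p ^ n)) * this
    rwa [mul_right_comm, Units.mul_left_eq_zero] at this
  rw [hdec z]
  refine U.add_mem ?_ ?_
  · obtain ⟨c, hc⟩ := (pow_mul_eq_zero hp hkn.le _).mp hx0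
    rw [hc, show n - k = e + (n - k - e) by omega, pow_add, mul_assoc, mul_comm, mul_smul, ← hue]
    exact smul_mem _ hu
  · obtain ⟨c, hc⟩ := (pow_mul_eq_zero hp hen.le _).mp hy0
    obtain ⟨d'', rfl⟩ := hd'
    have h4 : det u0 z • f = (P ^ (n - e - k) * c * ↑d''⁻¹) • ((P ^ k * ↑d'') • f) := by
      rw [smul_smul, hc]
      congr 1
      have : P ^ (n - e - k) * c * ↑d''⁻¹ * (P ^ k * ↑d'') = P ^ (n - e - k) * P ^ k * c := by
        calc _ = P ^ (n - e - k) * P ^ k * c * (↑d''⁻¹ * ↑d'') := by ring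
          _ = _ := by rw [Units.inv_mul, mul_one]
      rw [this, ← pow_add, show n - e - k + k = n - e by omega]
    rw [h4]
    exact smul_mem _ hdU

theorem le_perp_iff (hp : p.Prime) [NeZero (p ^ n)] (U : AddSubgroup (ZMod (p ^ n) × ZMod (p ^ n))) :
    U ≤ perp U ↔ Nat.card U ≤ p ^ n := by
  have hc := card_mul_card_perp U
  rw [Nat.card_prod, Nat.card_zmod] at hc
  constructor
  · intro h
    have h1 : Nat.card U ≤ Nat.card (perp U) := AddSubgroup.card_le_of_le h
    exact Nat.mul_self_le_mul_self_iff.mp ((Nat.mul_le_mul_left _ h1).trans_eq hc)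
  · intro h
    by_contra hne
    have hle := perp_le_of_not_le hp U hne
    have h1 : Nat.card (perp U) ≤ Nat.card U := AddSubgroup.card_le_of_le hle
    have h2 : p ^ n ≤ Nat.card U :=
      Nat.mul_self_le_mul_self_iff.mp (hc.symm.trans_le (Nat.mul_le_mul_left _ h1))
    have h3 : Nat.card U = p ^ n := le_antisymm h h2
    have h4 : Nat.card (perp U) = p ^ n := by
      rw [h3] at hc
      exact Nat.eq_of_mul_eq_mul_left (pow_pos hp.pos n) hc
    exact hne (AddSubgroup.eq_of_le_of_card_ge hle (by omega)).ge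

end CfsgLib.Metacyclic.Form
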