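import Cfsg.Agent.Lib.Metacyclic.Num
import Cfsg.Agent.Lib.Metacyclic.Form
import Cfsg.Prelude.Def_OddOrderLocal

set_option autoImplicit false

universe u

namespace CfsgLib.Metacyclic

open Num Form

/-- Generators of a metacyclic `p`-group, `p` odd. -/
structure Setting (G : Type u) [Group G] [Finite G] (p : ℕ) where
  a : G
  b : G
  m : ℕ
  f : ℕ
  s : ℕ
  e : ℕ
  hp : p.Prime
  hp2 : p ≠ 2
  hs : 1 ≤ s
  he : ¬ p ∣ e
  orderA : orderOf a = p ^ m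
  conj : b * a * b⁻¹ = a ^ (1 + p ^ s * e)
  gen : ∀ g, ∃ i j : ℕ, g = a ^ i * b ^ j
  cosets : ∀ j : ℕ, b ^ j ∈ Subgroup.zpowers a ↔ p ^ f ∣ j

variable {G : Type u} [Group G] [Finite G] {p : ℕ}

theorem exists_setting [hpf : Fact p.Prime] (hp2 : p ≠ 2) (hG : IsPGroup p G) (hmc : Cfsg.IsMetacyclic G) :
    Nonempty (Setting G p) := by
  have hp : p.Prime := Fact.out
  obtain ⟨N, hN, hNc, hQc⟩ := hmc
  obtain ⟨a, ha⟩ := (Subgroup.isCyclic_iff_exists_zpowers_eq_top N).mp hNc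
  obtain ⟨bq, hbq⟩ := hQc.exists_generator
  obtain ⟨b, rfl⟩ := QuotientGroup.mk_surjective bq
  subst ha
  obtain ⟨m, hm⟩ := IsPGroup.iff_orderOf.mp hG a
  obtain ⟨f, hf⟩ := IsPGroup.iff_orderOf.mp (hG.to_quotient (Subgroup.zpowers a)) (b : G ⧸ Subgroup.zpowers a)
  have hcos : ∀ j : ℕ, b ^ j ∈ Subgroup.zpowers a ↔ p ^ f ∣ j := by
    intro j
    rw [← QuotientGroup.eq_one_iff, QuotientGroup.mk_pow, ← hf, orderOf_dvd_iff_pow_eq_one]
  have hgen : ∀ g, ∃ i j : ℕ, g = a ^ i * b ^ j := by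
    intro g
    obtain ⟨j, hj⟩ := mem_powers_iff_mem_zpowers.mpr (hbq (g : G ⧸ Subgroup.zpowers a))
    have h1 : g * (b ^ j)⁻¹ ∈ Subgroup.zpowers a := by
      rw [← QuotientGroup.eq_one_iff, QuotientGroup.mk_mul, QuotientGroup.mk_inv, QuotientGroup.mk_pow]
      exact mul_inv_eq_one.mpr hj.symm
    obtain ⟨i, hi⟩ := mem_powers_iff_mem_zpowers.mpr h1
    exact ⟨i, j, by simp only at hi; rw [hi, inv_mul_cancel_right]⟩
  obtain ⟨r, hr⟩ : ∃ r : ℕ, a ^ r = b * a * b⁻¹ := by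
    obtain ⟨r, hr⟩ := mem_powers_iff_mem_zpowers.mpr (hN.conj_mem a (Subgroup.mem_zpowers a) b)
    exact ⟨r, hr⟩
  rcases Nat.eq_zero_or_pos m with hm0 | hm0
  · have ha1 : a = 1 := orderOf_eq_one_iff.mp (by rw [hm, hm0, pow_zero])
    exact ⟨⟨a, b, m, f, 1, 1, hp, hp2, le_rfl, hp.not_dvd_one, hm, by simp [ha1], hgen, hcos⟩⟩
  have hrp : (r : ZMod p) = 1 := by
    have h1 : ∀ k : ℕ, b ^ k * a * (b ^ k)⁻¹ = a ^ (r ^ k) := by
      intro k
      induction k with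
      | zero => simp
      | succ k ih =>
        calc b ^ (k + 1) * a * (b ^ (k + 1))⁻¹ = b * (b ^ k * a * (b ^ k)⁻¹) * b⁻¹ := by rw [pow_succ']; group
          _ = a ^ (r ^ (k + 1)) := by rw [ih, ← conj_pow, ← hr, ← pow_mul, pow_succ']
    have h2 := h1 (p ^ f)
    obtain ⟨t, ht⟩ := (hcos (p ^ f)).mpr dvd_rfl
    simp only at ht
    rw [← ht, (Commute.zpow_self a t).eq, mul_inv_cancel_right] at h2
    nth_rewrite 1 [← pow_one a] at h2
    rw [pow_eq_pow_iff_modEq, hm] at h2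
    have h3 : (r : ZMod p) ^ (p ^ f) = 1 := by
      have := (ZMod.natCast_eq_natCast_iff _ _ p).mpr (h2.of_dvd (dvd_pow_self p hm0.ne'))
      push_cast at this
      exact this.symm
    rwa [ZMod.pow_card_pow] at h3
  set c := (r + (p ^ m - 1)) % p ^ m with hc
  have hpm : 1 ≤ p ^ m := pow_pos hp.pos m
  have hac : a ^ (1 + c) = b * a * b⁻¹ := by
    rw [← hr, pow_eq_pow_iff_modEq, hm]
    calc 1 + c ≡ 1 + (r + (p ^ m - 1)) [MOD p ^ m] := (Nat.mod_modEq _ _).add_left 1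
      _ = r + p ^ m := by omega
      _ ≡ r [MOD p ^ m] := by simp [Nat.ModEq]
  rcases Nat.eq_zero_or_pos c with hc0 | hc0
  · refine ⟨⟨a, b, m, f, m, 1, hp, hp2, hm0, hp.not_dvd_one, hm, ?_, hgen, hcos⟩⟩
    rw [← hac, hc0, pow_eq_pow_iff_modEq, hm, mul_one]
    simp [Nat.ModEq]
  · obtain ⟨s, e, he, hse⟩ := Nat.exists_eq_pow_mul_and_not_dvd hc0.ne' p hp.one_lt.ne'
    have hs : 1 ≤ s := by
      by_contra! hs
      apply he
      have h0 : s = 0 := by omega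
      rw [h0, pow_zero, one_mul] at hse
      rw [← hse, ← ZMod.natCast_eq_zero_iff, hc]
      rw [show ((r + (p ^ m - 1)) % p ^ m : ℕ) = r + (p ^ m - 1) - p ^ m * ((r + (p ^ m - 1)) / p ^ m) from
        eq_tsub_of_add_eq (Nat.mod_add_div _ _), Nat.cast_sub (Nat.mul_div_le _ _), Nat.cast_add, Nat.cast_sub hpm,
        Nat.cast_mul, Nat.cast_pow, ZMod.natCast_self, zero_pow hm0.ne', hrp]
      simp
    exact ⟨⟨a, b, m, f, s, e, hp, hp2, hs, he, hm, by rw [← hse]; exact hac.symm, hgen, hcos⟩⟩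

namespace Setting

variable (S : Setting G p)

/-- The exponent by which `b` acts. -/
def r : ℕ := 1 + p ^ S.s * S.e

/-- `G'` has order `p ^ n`. -/
def n : ℕ := S.m - S.s

theorem neZero : NeZero (p ^ S.n) := ⟨pow_ne_zero _ S.hp.ne_zero⟩

theorem r_dvd : (p : ℤ) ∣ (S.r : ℤ) - 1 := by
  simp only [r]; push_cast
  rw [add_sub_cancel_left]
  exact dvd_mul_of_dvd_left (dvd_pow_self _ (by have := S.hs; omega)) _

theorem dvd_iff (x : ℤ) : ((p ^ S.m : ℕ) : ℤ) ∣ ((p ^ S.s * S.e : ℕ) : ℤ) * x ↔ ((p ^ S.n : ℕ) : ℤ) ∣ x := by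
  have hcop : ∀ k, IsCoprime ((p ^ k : ℕ) : ℤ) (S.e : ℤ) := fun k =>
    Nat.isCoprime_iff_coprime.mpr ((S.hp.coprime_iff_not_dvd.mpr S.he).pow_left k)
  push_cast
  rcases le_total S.m S.s with h | h
  · simp only [n, Nat.sub_eq_zero_of_le h, pow_zero, one_dvd, iff_true]
    exact dvd_mul_of_dvd_left (dvd_mul_of_dvd_left (pow_dvd_pow _ h) _) _
  · rw [show (p : ℤ) ^ S.m = (p : ℤ) ^ S.s * (p : ℤ) ^ S.n by rw [← pow_add]; congr 1; simp only [n]; omega,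
      mul_assoc, mul_dvd_mul_iff_left (pow_ne_zero _ (by exact_mod_cast S.hp.ne_zero))]
    refine ⟨fun hh => IsCoprime.dvd_of_dvd_mul_left ?_ hh, fun hh => dvd_mul_of_dvd_right hh _⟩
    simpa using hcop S.n

theorem pow_eq_iff (x y : ℕ) : S.a ^ x = S.a ^ y ↔ ((p ^ S.m : ℕ) : ℤ) ∣ (x : ℤ) - y := by
  rw [pow_eq_pow_iff_modEq, S.orderA, Nat.ModEq.comm, Nat.modEq_iff_dvd]

theorem conj_pow' (i j : ℕ) : S.b ^ j * S.a ^ i * (S.b ^ j)⁻¹ = S.a ^ (i * S.r ^ j) := by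
  induction j with
  | zero => simp
  | succ j ih =>
    calc S.b ^ (j + 1) * S.a ^ i * (S.b ^ (j + 1))⁻¹ = S.b * (S.b ^ j * S.a ^ i * (S.b ^ j)⁻¹) * S.b⁻¹ := by
          rw [pow_succ']; group
      _ = S.a ^ (i * S.r ^ (j + 1)) := by
          rw [ih, ← conj_pow, S.conj, ← pow_mul]; congr 1; simp only [r]; ring

theorem mul_eq (i j k l : ℕ) :
    (S.a ^ i * S.b ^ j) * (S.a ^ k * S.b ^ l) = S.a ^ (i + k * S.r ^ j) * S.b ^ (j + l) := by
  rw [pow_add S.a, ← S.conj_pow' k j, pow_add S.b]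
  group

theorem r_pow (j : ℕ) : S.r ^ j = 1 + p ^ S.s * S.e * geo S.r j := Num.pow_eq _ _ _ rfl

theorem n_le_f : S.n ≤ S.f := by
  obtain ⟨t, ht⟩ := (S.cosets (p ^ S.f)).mpr dvd_rfl
  simp only at ht
  have h := S.conj_pow' 1 (p ^ S.f)
  rw [pow_one, one_mul, ← ht, (Commute.zpow_self S.a t).eq, mul_inv_cancel_right] at h
  nth_rewrite 1 [← pow_one S.a] at h
  rw [S.pow_eq_iff, S.r_pow] at h
  push_cast at h
  rw [show (1 : ℤ) - (1 + (p : ℤ) ^ S.s * S.e * (geo S.r (p ^ S.f) : ℕ)) = -(((p ^ S.s * S.e : ℕ) : ℤ) * (geo S.r (p ^ S.f) : ℕ)) by push_cast; ring,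
    dvd_neg, ← Nat.cast_pow, S.dvd_iff, Int.natCast_dvd_natCast, dvd_geo_iff S.hp S.hp2 S.r_dvd] at h
  exact (Nat.pow_dvd_pow_iff_le_right S.hp.one_lt).mp h

theorem pow_eq_pow_mod {i i' j j' : ℕ} (h : S.a ^ i * S.b ^ j = S.a ^ i' * S.b ^ j') :
    i ≡ i' [MOD p ^ S.n] ∧ j ≡ j' [MOD p ^ S.n] := by
  wlog hle : j ≤ j' generalizing i i' j j'
  · have := this h.symm (le_of_not_ge hle)
    exact ⟨this.1.symm, this.2.symm⟩
  obtain ⟨d, rfl⟩ := Nat.exists_eq_add_of_le hle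
  have hd : S.b ^ d = (S.a ^ i')⁻¹ * S.a ^ i := by
    rw [show S.a ^ i' * S.b ^ (j + d) = (S.a ^ i' * S.b ^ d) * S.b ^ j by rw [add_comm, pow_add, mul_assoc]] at h
    rw [mul_right_cancel h]
    group
  have hdf : p ^ S.f ∣ d := (S.cosets d).mp (hd ▸ mul_mem (inv_mem (pow_mem (Subgroup.mem_zpowers _) _)) (pow_mem (Subgroup.mem_zpowers _) _))
  refine ⟨?_, ?_⟩
  · have hc : Commute S.b (S.b ^ d) := Commute.self_pow _ _
    rw [hd] at hc
    have h1 : S.b * S.a ^ i * S.b⁻¹ = S.a ^ (i * S.r) := by simpa using S.conj_pow' i 1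
    have h2 : S.b * S.a ^ i' * S.b⁻¹ = S.a ^ (i' * S.r) := by simpa using S.conj_pow' i' 1
    have h3 : (S.a ^ (i' * S.r))⁻¹ * S.a ^ (i * S.r) = (S.a ^ i')⁻¹ * S.a ^ i := by
      rw [← h1, ← h2]
      calc (S.b * S.a ^ i' * S.b⁻¹)⁻¹ * (S.b * S.a ^ i * S.b⁻¹) = S.b * ((S.a ^ i')⁻¹ * S.a ^ i) * S.b⁻¹ := by group
        _ = (S.a ^ i')⁻¹ * S.a ^ i := by rw [hc.eq]; group
    have h4 : S.a ^ (i * S.r + i') = S.a ^ (i + i' * S.r) := by
      rw [add_comm i (i' * S.r), pow_add, pow_add]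
      have hcm : ∀ x y : ℕ, Commute (S.a ^ x) (S.a ^ y) := fun x y => Commute.pow_pow_self S.a x y
      calc S.a ^ (i * S.r) * S.a ^ i' = S.a ^ (i' * S.r) * ((S.a ^ (i' * S.r))⁻¹ * S.a ^ (i * S.r)) * S.a ^ i' := by group
        _ = S.a ^ (i' * S.r) * ((S.a ^ i')⁻¹ * S.a ^ i) * S.a ^ i' := by rw [h3]
        _ = S.a ^ (i' * S.r) * ((S.a ^ i')⁻¹ * (S.a ^ i' * S.a ^ i)) := by rw [mul_assoc, mul_assoc, (hcm i' i).eq]
        _ = S.a ^ (i' * S.r) * S.a ^ i := by group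
    rw [S.pow_eq_iff] at h4
    simp only [r] at h4
    push_cast at h4
    rw [show (i : ℤ) * (1 + (p : ℤ) ^ S.s * S.e) + i' - (i + i' * (1 + (p : ℤ) ^ S.s * S.e)) = ((p ^ S.s * S.e : ℕ) : ℤ) * ((i : ℤ) - i') by push_cast; ring,
      ← Nat.cast_pow, S.dvd_iff] at h4
    exact (Nat.modEq_iff_dvd.mpr h4).symm
  · rw [Nat.modEq_iff_dvd' (Nat.le_add_right _ _), Nat.add_sub_cancel_left]
    exact (pow_dvd_pow p S.n_le_f).trans hdf

/-- The coordinates modulo the center. -/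
noncomputable def v (g : G) : ZMod (p ^ S.n) × ZMod (p ^ S.n) :=
  (((S.gen g).choose : ZMod (p ^ S.n)), (geo S.r (S.gen g).choose_spec.choose : ZMod (p ^ S.n)))

theorem v_eq (i j : ℕ) : S.v (S.a ^ i * S.b ^ j) = ((i : ZMod (p ^ S.n)), (geo S.r j : ZMod (p ^ S.n))) := by
  obtain ⟨h1, h2⟩ := S.pow_eq_pow_mod (S.gen (S.a ^ i * S.b ^ j)).choose_spec.choose_spec
  exact Prod.ext ((ZMod.natCast_eq_natCast_iff _ _ _).mpr h1.symm)
    ((ZMod.natCast_eq_natCast_iff _ _ _).mpr (geo_modEq S.hp S.hp2 S.r_dvd h2.symm))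

theorem v_one : S.v 1 = 0 := by
  have := S.v_eq 0 0
  rw [pow_zero, pow_zero, mul_one] at this
  simp [this]

/-- The multiplier of the crossed homomorphism `v`. -/
def rho (x : ZMod (p ^ S.n) × ZMod (p ^ S.n)) : ZMod (p ^ S.n) := 1 + (p ^ S.s * S.e : ℕ) * x.2

theorem rho_v (i j : ℕ) : S.rho (S.v (S.a ^ i * S.b ^ j)) = ((S.r ^ j : ℕ) : ZMod (p ^ S.n)) := by
  rw [S.v_eq, S.r_pow]; simp [rho]

theorem isUnit_rho (g : G) : IsUnit (S.rho (S.v g)) := by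
  obtain ⟨i, j, rfl⟩ := S.gen g
  rw [S.rho_v, ZMod.isUnit_iff_coprime]
  refine Nat.Coprime.pow _ _ (S.hp.coprime_iff_not_dvd.mpr fun h => ?_).symm
  have h1 := dvd_sub (Int.natCast_dvd_natCast.mpr h) S.r_dvd
  rw [sub_sub_cancel] at h1
  exact S.hp.one_lt.ne' (Nat.dvd_one.mp (by exact_mod_cast h1))

theorem v_mul (g h : G) : S.v (g * h) = S.v g + S.rho (S.v g) • S.v h := by
  obtain ⟨i, j, rfl⟩ := S.gen g
  obtain ⟨k, l, rfl⟩ := S.gen h
  rw [S.rho_v, S.mul_eq, S.v_eq, S.v_eq, S.v_eq, geo_add]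
  ext <;> simp [mul_comm]

theorem v_pow (g : G) : ∃ x : ℕ, (p : ℤ) ∣ (x : ℤ) - 1 ∧ ∀ k : ℕ, S.v (g ^ k) = (geo x k : ZMod (p ^ S.n)) • S.v g := by
  obtain ⟨i, j, rfl⟩ := S.gen g
  refine ⟨S.r ^ j, ?_, fun k => ?_⟩
  · push_cast
    exact S.r_dvd.trans (sub_one_dvd_pow_sub_one _ j)
  · induction k with
    | zero => simp [S.v_one]
    | succ k ih =>
      rw [pow_succ', S.v_mul, ih, S.rho_v, add_comm k 1, geo_add]
      simp [add_smul, mul_smul]

theorem exists_pow_v (g : G) (c : ZMod (p ^ S.n)) : ∃ k : ℕ, S.v (g ^ k) = c • S.v g := by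
  obtain ⟨x, hx, hk⟩ := S.v_pow g
  obtain ⟨k, rfl⟩ := geo_surjective S.hp S.hp2 hx S.n c
  exact ⟨k, hk k⟩

theorem v_surjective : Function.Surjective S.v := by
  haveI := S.neZero
  rintro ⟨x, y⟩
  obtain ⟨j, rfl⟩ := geo_surjective S.hp S.hp2 S.r_dvd S.n y
  exact ⟨S.a ^ x.val * S.b ^ j, by rw [S.v_eq, ZMod.natCast_zmod_val]⟩

theorem commute_iff (g h : G) : Commute g h ↔ det (S.v g) (S.v h) = 0 := by
  obtain ⟨i, j, rfl⟩ := S.gen g
  obtain ⟨k, l, rfl⟩ := S.gen h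
  rw [commute_iff_eq, S.mul_eq, S.mul_eq, add_comm l j, mul_left_inj, S.pow_eq_iff, S.v_eq, S.v_eq,
    S.r_pow, S.r_pow]
  have : det ((i : ZMod (p ^ S.n)), (geo S.r j : ZMod (p ^ S.n))) ((k : ZMod (p ^ S.n)), (geo S.r l : ZMod (p ^ S.n))) =
      (((i : ℤ) * geo S.r l - k * geo S.r j : ℤ) : ZMod (p ^ S.n)) := by
    simp [det, mul_comm]
  rw [this, ZMod.intCast_zmod_eq_zero_iff_dvd]
  push_cast
  rw [show (i : ℤ) + k * (1 + (p : ℤ) ^ S.s * S.e * geo S.r j) - (k + i * (1 + (p : ℤ) ^ S.s * S.e * geo S.r l)) =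
    -(((p ^ S.s * S.e : ℕ) : ℤ) * ((i : ℤ) * geo S.r l - k * geo S.r j)) by push_cast; ring, dvd_neg, ← Nat.cast_pow,
    S.dvd_iff]
  push_cast
  rfl

theorem mem_center_iff (g : G) : g ∈ Subgroup.center G ↔ S.v g = 0 := by
  haveI := S.neZero
  rw [Subgroup.mem_center_iff]
  constructor
  · intro h
    refine eq_zero_of_det _ fun w => ?_
    obtain ⟨x, rfl⟩ := S.v_surjective w
    exact (S.commute_iff g x).mp (h x).symm
  · intro h x
    exact ((S.commute_iff g x).mpr (by simp [h, det])).symm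

theorem v_eq_iff (g h : G) : S.v g = S.v h ↔ g⁻¹ * h ∈ Subgroup.center G := by
  have := S.v_mul g (g⁻¹ * h)
  rw [mul_inv_cancel_left] at this
  rw [S.mem_center_iff, this, left_eq_add, (S.isUnit_rho g).smul_eq_zero]

/-- The image of a subgroup is a subgroup of `(ℤ/p^n)^2`. -/
noncomputable def image (H : Subgroup G) : AddSubgroup (ZMod (p ^ S.n) × ZMod (p ^ S.n)) where
  carrier := S.v '' (H : Set G)
  zero_mem' := ⟨1, H.one_mem, S.v_one⟩
  add_mem' := by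
    rintro _ _ ⟨g, hg, rfl⟩ ⟨h, hh, rfl⟩
    obtain ⟨w, hw⟩ := S.isUnit_rho g
    obtain ⟨k, hk⟩ := S.exists_pow_v h ↑w⁻¹
    exact ⟨g * h ^ k, H.mul_mem hg (H.pow_mem hh k), by rw [S.v_mul, hk, ← hw, smul_smul, Units.mul_inv, one_smul]⟩
  neg_mem' := by
    rintro _ ⟨g, hg, rfl⟩
    obtain ⟨k, hk⟩ := S.exists_pow_v g (-1)
    exact ⟨g ^ k, H.pow_mem hg k, by rw [hk, neg_one_smul]⟩

theorem mem_image {H : Subgroup G} {w : ZMod (p ^ S.n) × ZMod (p ^ S.n)} :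
    w ∈ S.image H ↔ ∃ g ∈ H, S.v g = w := Iff.rfl

/-- The preimage of a subgroup of `(ℤ/p^n)^2`. -/
noncomputable def preimage (U : AddSubgroup (ZMod (p ^ S.n) × ZMod (p ^ S.n))) : Subgroup G where
  carrier := {g | S.v g ∈ U}
  one_mem' := by simp [S.v_one]
  mul_mem' := by
    haveI := S.neZero
    intro g h hg hh
    show S.v (g * h) ∈ U
    rw [S.v_mul]
    exact U.add_mem hg (smul_mem _ hh)
  inv_mem' := by
    haveI := S.neZero
    intro g hg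
    show S.v g⁻¹ ∈ U
    obtain ⟨x, -, hk⟩ := S.v_pow g
    have hinv : g⁻¹ = g ^ (orderOf g - 1) := inv_eq_of_mul_eq_one_right (by
      rw [← pow_succ', Nat.sub_add_cancel (orderOf_pos g), pow_orderOf_eq_one])
    rw [hinv, hk]
    exact smul_mem _ hg

theorem mem_preimage {U : AddSubgroup (ZMod (p ^ S.n) × ZMod (p ^ S.n))} {g : G} :
    g ∈ S.preimage U ↔ S.v g ∈ U := Iff.rfl

theorem center_le_preimage (U : AddSubgroup (ZMod (p ^ S.n) × ZMod (p ^ S.n))) :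
    Subgroup.center G ≤ S.preimage U := fun g hg => by
  rw [S.mem_preimage, (S.mem_center_iff g).mp hg]; exact U.zero_mem

theorem image_preimage (U : AddSubgroup (ZMod (p ^ S.n) × ZMod (p ^ S.n))) : S.image (S.preimage U) = U := by
  ext w
  constructor
  · rintro ⟨g, hg, rfl⟩; exact hg
  · intro hw
    obtain ⟨g, rfl⟩ := S.v_surjective w
    exact ⟨g, hw, rfl⟩

theorem preimage_image {H : Subgroup G} (h : Subgroup.center G ≤ H) : S.preimage (S.image H) = H := by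
  ext g
  constructor
  · rintro ⟨x, hx, hxg⟩
    have := H.mul_mem hx (h ((S.v_eq_iff x g).mp hxg))
    rwa [mul_inv_cancel_left] at this
  · exact fun hg => ⟨g, hg, rfl⟩

theorem image_top : S.image ⊤ = ⊤ :=
  eq_top_iff.mpr fun w _ => by obtain ⟨g, rfl⟩ := S.v_surjective w; exact ⟨g, trivial, rfl⟩

theorem card_eq (H : Subgroup G) :
    Nat.card H = Nat.card (S.image H) * Nat.card (H ⊓ Subgroup.center G : Subgroup G) := by
  have e1 : Nat.card (H ⊓ Subgroup.center G : Subgroup G) = Nat.card ((Subgroup.center G).subgroupOf H) := by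
    rw [← Nat.card_congr (Subgroup.subgroupOfEquivOfLe (inf_le_left : H ⊓ Subgroup.center G ≤ H)).toEquiv,
      Subgroup.inf_subgroupOf_left]
  have hbij : Function.Bijective (fun q : H ⧸ (Subgroup.center G).subgroupOf H =>
      Quotient.liftOn' q (fun h : H => (⟨S.v h, ⟨h, h.2, rfl⟩⟩ : S.image H)) fun g h hgh => by
        rw [QuotientGroup.leftRel_apply, Subgroup.mem_subgroupOf] at hgh
        exact Subtype.ext ((S.v_eq_iff g h).mpr hgh)) := by
    constructor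
    · intro x y hxy
      induction x using QuotientGroup.induction_on with | H x => ?_
      induction y using QuotientGroup.induction_on with | H y => ?_
      rw [QuotientGroup.eq, Subgroup.mem_subgroupOf]
      exact (S.v_eq_iff (x : G) y).mp (congrArg Subtype.val hxy)
    · rintro ⟨_, g, hg, rfl⟩
      exact ⟨QuotientGroup.mk ⟨g, hg⟩, rfl⟩
  rw [Subgroup.card_eq_card_quotient_mul_card_subgroup ((Subgroup.center G).subgroupOf H), ← e1,
    Nat.card_eq_of_bijective _ hbij]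

theorem card_preimage (U : AddSubgroup (ZMod (p ^ S.n) × ZMod (p ^ S.n))) :
    Nat.card (S.preimage U) = Nat.card U * Nat.card (Subgroup.center G) := by
  rw [S.card_eq, S.image_preimage, inf_eq_right.mpr (S.center_le_preimage U)]

theorem card_pairs : Nat.card (ZMod (p ^ S.n) × ZMod (p ^ S.n)) = p ^ S.n * p ^ S.n := by
  rw [Nat.card_prod, Nat.card_zmod]

theorem index_center : (Subgroup.center G).index = p ^ S.n * p ^ S.n := by
  have h1 := S.card_eq ⊤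
  rw [S.image_top, Subgroup.card_top, top_inf_eq, AddSubgroup.card_top, S.card_pairs,
    ← Subgroup.card_mul_index (Subgroup.center G), mul_comm] at h1
  exact Nat.eq_of_mul_eq_mul_right Nat.card_pos h1

theorem centralizer_eq (H : Subgroup G) :
    Subgroup.centralizer (H : Set G) = S.preimage (haveI := S.neZero; perp (S.image H)) := by
  haveI := S.neZero
  ext g
  rw [Subgroup.mem_centralizer_iff, S.mem_preimage, mem_perp]
  constructor
  · rintro h _ ⟨x, hx, rfl⟩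
    exact (S.commute_iff x g).mp (h x hx)
  · intro h x hx
    exact (S.commute_iff x g).mpr (h _ ⟨x, hx, rfl⟩)

theorem comm_iff (H : Subgroup G) : IsMulCommutative H ↔ (haveI := S.neZero; S.image H ≤ perp (S.image H)) := by
  haveI := S.neZero
  constructor
  · rintro hH _ ⟨g, hg, rfl⟩ _ ⟨h, hh, rfl⟩
    exact (S.commute_iff h g).mp (congrArg Subtype.val (mul_comm' (⟨h, hh⟩ : H) ⟨g, hg⟩))
  · intro h
    exact ⟨⟨fun x y => Subtype.ext ((S.commute_iff (x : G) y).mpr (h ⟨y, y.2, rfl⟩ _ ⟨x, x.2, rfl⟩))⟩⟩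

end Setting

end CfsgLib.Metacyclic
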