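import Mathlib

set_option autoImplicit false

namespace CfsgLib.Metacyclic.Num

/-- `geo x k = 1 + x + ... + x^(k-1)`. -/
def geo (x k : ℕ) : ℕ := ∑ i ∈ Finset.range k, x ^ i

theorem geo_add (x j l : ℕ) : geo x (j + l) = geo x j + x ^ j * geo x l := by
  unfold geo
  rw [Finset.sum_range_add, Finset.mul_sum]
  simp [pow_add]

@[simp] theorem geo_zero (x : ℕ) : geo x 0 = 0 := by simp [geo]

@[simp] theorem geo_one (x : ℕ) : geo x 1 = 1 := by simp [geo]

theorem sub_one_mul_geo (x k : ℕ) : ((x : ℤ) - 1) * (geo x k : ℤ) = (x : ℤ) ^ k - 1 := by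
  rw [mul_comm, ← geom_sum_mul]
  simp [geo]

theorem pow_eq (x k c : ℕ) (hx : x = 1 + c) : x ^ k = 1 + c * geo x k := by
  induction k with
  | zero => simp
  | succ k ih =>
    rw [geo, Finset.sum_range_succ, ← geo, pow_succ]
    nth_rewrite 1 [ih]
    subst hx
    have := ih
    ring_nf at this ⊢
    nlinarith [this]

variable {p : ℕ}

/-- The `p`-part of `1 + x + ... + x^(k-1)` is the `p`-part of `k` for `x = 1` mod `p`, `p` odd. -/
theorem dvd_geo_iff (hp : p.Prime) (hp2 : p ≠ 2) {x : ℕ} (hx : (p : ℤ) ∣ (x : ℤ) - 1) (k e : ℕ) :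
    p ^ e ∣ geo x k ↔ p ^ e ∣ k := by
  rcases eq_or_ne x 1 with rfl | hx1
  · simp [geo]
  have hc : ((x : ℤ) - 1) ≠ 0 := by omega
  have hxp : ¬ (p : ℤ) ∣ (x : ℤ) := by
    intro h
    have h1 := dvd_sub h hx
    rw [sub_sub_cancel] at h1
    exact hp.one_lt.ne' (Nat.dvd_one.mp (by exact_mod_cast h1))
  have h := Int.emultiplicity_pow_sub_pow hp (hp.odd_of_ne_two hp2) (y := 1) hx hxp k
  rw [one_pow, ← sub_one_mul_geo, emultiplicity_mul (Nat.prime_iff_prime_int.mp hp)] at h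
  have hfin : FiniteMultiplicity (p : ℤ) ((x : ℤ) - 1) :=
    Int.finiteMultiplicity_iff.mpr ⟨by simpa using hp.ne_one, hc⟩
  rw [hfin.emultiplicity_eq_multiplicity] at h
  have h := (ENat.addLECancellable_of_ne_top (ENat.natCast_ne_top _)).inj.mp h
  rw [Int.natCast_emultiplicity] at h
  rw [pow_dvd_iff_le_emultiplicity, pow_dvd_iff_le_emultiplicity, h]

theorem geo_modEq (hp : p.Prime) (hp2 : p ≠ 2) {x : ℕ} (hx : (p : ℤ) ∣ (x : ℤ) - 1) {j l e : ℕ}
    (h : j ≡ l [MOD p ^ e]) : geo x j ≡ geo x l [MOD p ^ e] := by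
  rcases le_total j l with hle | hle
  · obtain ⟨d, rfl⟩ := Nat.exists_eq_add_of_le hle
    have hd : p ^ e ∣ d := by
      have := (Nat.modEq_iff_dvd' hle).mp h
      simpa using this
    rw [geo_add, Nat.modEq_iff_dvd' (Nat.le_add_right _ _), Nat.add_sub_cancel_left]
    exact dvd_mul_of_dvd_right ((dvd_geo_iff hp hp2 hx d e).mpr hd) _
  · obtain ⟨d, rfl⟩ := Nat.exists_eq_add_of_le hle
    have hd : p ^ e ∣ d := by
      have := (Nat.modEq_iff_dvd' hle).mp h.symm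
      simpa using this
    refine Nat.ModEq.symm ?_
    rw [geo_add, Nat.modEq_iff_dvd' (Nat.le_add_right _ _), Nat.add_sub_cancel_left]
    exact dvd_mul_of_dvd_right ((dvd_geo_iff hp hp2 hx d e).mpr hd) _

/-- `k ↦ 1 + ... + x^(k-1)` is surjective modulo `p^e`. -/
theorem geo_surjective (hp : p.Prime) (hp2 : p ≠ 2) {x : ℕ} (hx : (p : ℤ) ∣ (x : ℤ) - 1) (e : ℕ)
    (c : ZMod (p ^ e)) : ∃ k : ℕ, (geo x k : ZMod (p ^ e)) = c := by
  haveI : NeZero (p ^ e) := ⟨pow_ne_zero _ hp.ne_zero⟩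
  have hinj : Function.Injective (fun k : Fin (p ^ e) => (geo x (k : ℕ) : ZMod (p ^ e))) := by
    intro j l hjl
    have h : geo x (j : ℕ) ≡ geo x (l : ℕ) [MOD p ^ e] := (ZMod.natCast_eq_natCast_iff _ _ _).mp hjl
    have hcop : ∀ i : ℕ, (p ^ e).Coprime (x ^ i) := by
      intro i
      refine Nat.Coprime.pow _ _ (hp.coprime_iff_not_dvd.mpr fun h' => ?_)
      have h1 := dvd_sub (Int.natCast_dvd_natCast.mpr h') hx
      rw [sub_sub_cancel] at h1
      exact hp.one_lt.ne' (Nat.dvd_one.mp (by exact_mod_cast h1))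
    apply Fin.ext
    rcases le_total (j : ℕ) (l : ℕ) with hle | hle
    · obtain ⟨d, hd⟩ := Nat.exists_eq_add_of_le hle
      rw [hd, geo_add, Nat.modEq_iff_dvd' (Nat.le_add_right _ _), Nat.add_sub_cancel_left,
        (hcop _).dvd_mul_left, dvd_geo_iff hp hp2 hx] at h
      have : d = 0 := Nat.eq_zero_of_dvd_of_lt h (by omega)
      omega
    · obtain ⟨d, hd⟩ := Nat.exists_eq_add_of_le hle
      have h := h.symm
      rw [hd, geo_add, Nat.modEq_iff_dvd' (Nat.le_add_right _ _), Nat.add_sub_cancel_left,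
        (hcop _).dvd_mul_left, dvd_geo_iff hp hp2 hx] at h
      have : d = 0 := Nat.eq_zero_of_dvd_of_lt h (by omega)
      omega
  have hb := (Fintype.bijective_iff_injective_and_card _).mpr ⟨hinj, by simp [ZMod.card]⟩
  obtain ⟨k, hk⟩ := hb.2 c
  exact ⟨k, hk⟩

end CfsgLib.Metacyclic.Num
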