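import Cfsg.Agent.Lib.Metacyclic.TwoAut
import Cfsg.Agent.Lib.MaxClass.Suzuki

/-! Metacyclic groups of odd prime power order: invariant chains with cyclic steps. (helper6) -/

set_option autoImplicit false
set_option linter.unusedSectionVars false
set_option linter.style.haveILetI false

universe u

namespace CfsgLib.Metacyclic.OddAut

open scoped commutatorElement
open CfsgLib.Fusion.CyclicChain CfsgLib.Fusion.AbelianChain

theorem inv_of_distinct {W : Type*} [CommGroup W] [Finite W] {p : ℕ} [Fact p.Prime] (hW : IsPGroup p W) {ι : Type}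
    [Fintype ι] (e : ι → ℕ) (he : Function.Injective e) (φ : W ≃* ∀ i, Multiplicative (ZMod (p ^ e i)))
    (H : Subgroup (MulAut W)) : ∃ (m : ℕ) (c : ℕ → Subgroup W), Inv H m c := by
  classical
  obtain ⟨K, hK⟩ := IsPGroup.iff_card.mp hW
  set L := K + 1 with hL
  have hkill : ∀ (y : W) (j : ℕ), K ≤ j → y ^ p ^ j = 1 := fun y j hj => by
    obtain ⟨d, rfl⟩ := Nat.exists_eq_add_of_le hj
    rw [pow_add, pow_mul, show y ^ p ^ K = 1 by rw [← hK]; exact pow_card_eq_one', one_pow]
  let c : ℕ → Subgroup W := fun t => layer p (t / L + 1) (L - t % L)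
  refine ⟨L * L, c, ?_, ?_, fun i => inferInstance, fun t _ => ?_, fun t _ => ?_,
    fun a _ i y hy => layer_inv p _ _ a hy⟩
  · show layer p (0 / L + 1) (L - 0 % L) = ⊥
    rw [Nat.zero_div, Nat.zero_mod, Nat.sub_zero, layer, eq_bot_iff, sup_le_iff]
    refine ⟨fun y hy => ?_, fun y hy => ?_⟩
    · obtain ⟨z, hz⟩ := hy.2
      rw [Subgroup.mem_bot, ← hz]
      exact hkill z L (by omega)
    · simpa using hy
  · show layer p (L * L / L + 1) (L - L * L % L) = ⊤
    rw [Nat.mul_div_cancel _ (by omega), Nat.mul_mod_left, eq_top_iff]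
    exact fun y _ => Subgroup.mem_sup_right (hkill y _ (by omega))
  · show layer p (t / L + 1) (L - t % L) ≤ layer p ((t + 1) / L + 1) (L - (t + 1) % L)
    rcases Nat.lt_or_ge (t % L + 1) L with hlt | hge
    · have h1 : (t + 1) % L = t % L + 1 := by rw [Nat.add_mod, Nat.one_mod_eq_one.mpr (by omega), Nat.mod_eq_of_lt hlt]
      have h2 : (t + 1) / L = t / L := Nat.succ_div_of_not_dvd fun hd => by
        have := Nat.dvd_iff_mod_eq_zero.mp hd; omega
      rw [h1, h2]
      refine sup_le_sup_right (inf_le_inf_left _ ?_) _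
      rintro _ ⟨z, rfl⟩
      refine ⟨z ^ p, ?_⟩
      show (z ^ p) ^ p ^ (L - (t % L + 1)) = z ^ p ^ (L - t % L)
      rw [← pow_mul, ← pow_succ']
      congr 2
      omega
    · have h0 : t % L = L - 1 := by have := Nat.mod_lt t (show 0 < L by omega); omega
      have hd : L ∣ t + 1 := by
        refine ⟨t / L + 1, ?_⟩
        rw [Nat.mul_add, mul_one]; have := Nat.div_add_mod t L; omega
      rw [Nat.succ_div_of_dvd hd, show (t + 1) % L = 0 from Nat.mod_eq_zero_of_dvd hd]
      have hq := Nat.zero_le (t / L)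
      generalize htL : t / L = s at hd hq ⊢
      refine sup_le (fun y hy => Subgroup.mem_sup_right hy.1) fun y hy => Subgroup.mem_sup_right ?_
      show y ^ p ^ (s + 1 + 1 - 1) = 1
      have hy' : y ^ p ^ (s + 1 - 1) = 1 := hy
      rw [show s + 1 + 1 - 1 = (s + 1 - 1) + 1 by omega, pow_succ, pow_mul, hy', one_pow]
  · show ∃ x ∈ layer p ((t + 1) / L + 1) (L - (t + 1) % L),
      layer p ((t + 1) / L + 1) (L - (t + 1) % L) ≤ layer p (t / L + 1) (L - t % L) ⊔ Subgroup.zpowers x
    -- read the step in coordinates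
    have key : ∀ a b, 1 ≤ a → ∃ x ∈ layer (W := W) p a b, layer (W := W) p a b ≤ layer p a (b + 1) ⊔ Subgroup.zpowers x := by
      intro a b ha
      obtain ⟨x, hx, hle⟩ := layer_step (p := p) e he a b ha
      have hmap : ∀ a b, (layer (W := ∀ i, Multiplicative (ZMod (p ^ e i))) p a b).map φ.symm.toMonoidHom = layer p a b := by
        intro a b
        refine le_antisymm ?_ fun y hy => ⟨φ y, ?_, φ.symm_apply_apply y⟩
        · rintro _ ⟨y, hy, rfl⟩
          obtain ⟨u, ⟨hu1, z, hu2⟩, v, hv, rfl⟩ := Subgroup.mem_sup.mp hy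
          rw [map_mul]
          refine Subgroup.mul_mem_sup ⟨?_, φ.symm z, ?_⟩ ?_
          · show (φ.symm u) ^ p ^ a = 1
            rw [← map_pow, show u ^ p ^ a = 1 from hu1, map_one]
          · show (φ.symm z) ^ p ^ b = φ.symm u
            rw [← map_pow]; exact congrArg φ.symm hu2
          · show (φ.symm v) ^ p ^ (a - 1) = 1
            rw [← map_pow, show v ^ p ^ (a - 1) = 1 from hv, map_one]
        · obtain ⟨u, ⟨hu1, z, hu2⟩, v, hv, rfl⟩ := Subgroup.mem_sup.mp hy
          rw [map_mul]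
          refine Subgroup.mul_mem_sup ⟨?_, φ z, ?_⟩ ?_
          · show (φ u) ^ p ^ a = 1
            rw [← map_pow, show u ^ p ^ a = 1 from hu1, map_one]
          · show (φ z) ^ p ^ b = φ u
            rw [← map_pow]; exact congrArg φ hu2
          · show (φ v) ^ p ^ (a - 1) = 1
            rw [← map_pow, show v ^ p ^ (a - 1) = 1 from hv, map_one]
      refine ⟨φ.symm x, (hmap a b).le ⟨x, hx, rfl⟩, (hmap a b).ge.trans ((Subgroup.map_mono hle).trans ?_)⟩
      rw [Subgroup.map_sup, hmap, MonoidHom.map_zpowers]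
      rfl
    rcases Nat.lt_or_ge (t % L + 1) L with hlt | hge
    · have h1 : (t + 1) % L = t % L + 1 := by rw [Nat.add_mod, Nat.one_mod_eq_one.mpr (by omega), Nat.mod_eq_of_lt hlt]
      have h2 : (t + 1) / L = t / L := Nat.succ_div_of_not_dvd fun hd => by
        have := Nat.dvd_iff_mod_eq_zero.mp hd; omega
      rw [h1, h2, show L - t % L = L - (t % L + 1) + 1 by omega]
      exact key _ _ (Nat.le_add_left 1 _)
    · have h0 : t % L = L - 1 := by have := Nat.mod_lt t (show 0 < L by omega); omega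
      have hd : L ∣ t + 1 := by
        refine ⟨t / L + 1, ?_⟩
        rw [Nat.mul_add, mul_one]; have := Nat.div_add_mod t L; omega
      rw [Nat.succ_div_of_dvd hd, show (t + 1) % L = 0 from Nat.mod_eq_zero_of_dvd hd, h0]
      rw [show L - (L - 1) = 1 by omega]
      generalize htL : t / L = s at *
      obtain ⟨x, hx, hle⟩ := key (s + 1) 0 (Nat.le_add_left 1 _)
      refine ⟨x, ?_, ?_⟩
      · obtain ⟨u, ⟨hu1, z, hu2⟩, v, hv, rfl⟩ := Subgroup.mem_sup.mp hx
        refine Subgroup.mem_sup_right ?_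
        show (u * v) ^ p ^ (s + 1 + 1 - 1) = 1
        have hv' : v ^ p ^ (s + 1 - 1) = 1 := hv
        rw [mul_pow, show s + 1 + 1 - 1 = s + 1 by omega, show u ^ p ^ (s + 1) = 1 from hu1, one_mul,
          show s + 1 = s + 1 - 1 + 1 by omega, pow_succ, pow_mul, hv', one_pow]
      · refine sup_le (fun y hy => ?_) fun y hy => hle ?_
        · obtain ⟨z, hz⟩ := hy.2
          have : y = 1 := by rw [← hz]; exact hkill z _ (by omega)
          rw [this]; exact one_mem _
        · refine Subgroup.mem_sup_left ⟨?_, y, ?_⟩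
          · show y ^ p ^ (s + 1) = 1
            have hy' : y ^ p ^ (s + 1 + 1 - 1) = 1 := hy
            rwa [show s + 1 + 1 - 1 = s + 1 by omega] at hy'
          · show y ^ p ^ 0 = y
            rw [pow_zero, pow_one]

theorem card_pow_eq_one_le {X : Type u} [Group X] [Finite X] {p : ℕ} (hp : 0 < p) (hm : Cfsg.IsMetacyclic X)
    (hab : ∀ a b : X, a * b = b * a) : Nat.card {x : X // x ^ p = 1} ≤ p ^ 2 := by
  classical
  obtain ⟨N, hN, hc, hq⟩ := hm
  have two : ∀ (H : Type u) [Group H] [Finite H] [IsCyclic H], Nat.card {x : H // x ^ p = 1} ≤ p := by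
    intro H _ _ _
    haveI := Fintype.ofFinite H
    rw [Nat.card_eq_fintype_card, Fintype.card_subtype]
    exact IsCyclic.card_pow_eq_one_le hp
  let f : {x : X // x ^ p = 1} → {q : X ⧸ N // q ^ p = 1} := fun x =>
    ⟨QuotientGroup.mk' N x, by rw [← map_pow, x.2, map_one]⟩
  haveI := Fintype.ofFinite {q : X ⧸ N // q ^ p = 1}
  have hfib : ∀ q, Nat.card {x // f x = q} ≤ p := by
    intro q
    rcases isEmpty_or_nonempty {x // f x = q} with he | ⟨⟨x₀, hx₀⟩⟩
    · simp
    have hmem : ∀ x : {x // f x = q}, (x.1 : X) * (x₀ : X)⁻¹ ∈ N := fun x => by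
      rw [← QuotientGroup.eq_one_iff, QuotientGroup.mk_mul, QuotientGroup.mk_inv, mul_inv_eq_one]
      exact congrArg Subtype.val (x.2.trans hx₀.symm)
    let g : {x // f x = q} → {n : ↥N // n ^ p = 1} := fun x => ⟨⟨_, hmem x⟩, Subtype.ext (by
      show ((x.1 : X) * (x₀ : X)⁻¹) ^ p = 1
      rw [(show Commute (x.1 : X) (x₀ : X)⁻¹ from hab _ _).mul_pow, x.1.2, inv_pow, x₀.2, inv_one, mul_one])⟩
    refine (Nat.card_le_card_of_injective g fun x y h => Subtype.ext (Subtype.ext ?_)).trans (two ↥N)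
    exact mul_right_cancel (congrArg Subtype.val (congrArg Subtype.val h))
  calc Nat.card {x : X // x ^ p = 1} = Nat.card (Σ q, {x // f x = q}) := (Nat.card_congr (Equiv.sigmaFiberEquiv f)).symm
    _ = ∑ q, Nat.card {x // f x = q} := Nat.card_sigma
    _ ≤ ∑ _q : {q : X ⧸ N // q ^ p = 1}, p := Finset.sum_le_sum fun q _ => hfib q
    _ ≤ p ^ 2 := by
      rw [Finset.sum_const, Finset.card_univ, ← Nat.card_eq_fintype_card, smul_eq_mul]
      rw [pow_two p]
      exact Nat.mul_le_mul_right p (two (X ⧸ N))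

/-- The chain of a homocyclic group of rank two over a subgroup of index `p`. -/
theorem inv_of_index {W : Type u} [CommGroup W] [Finite W] {p : ℕ} [Fact p.Prime] {n : ℕ} (hn : 0 < n)
    (e : W ≃* Multiplicative (ZMod (p ^ n)) × Multiplicative (ZMod (p ^ n)))
    (A : Subgroup (MulAut W)) (K : Subgroup W) (hK : K.index = p) (hinv : ∀ a ∈ A, ∀ y ∈ K, a y ∈ K) :
    ∃ (m : ℕ) (c : ℕ → Subgroup W), Inv A m c := by
  classical
  have hp := (Fact.out : p.Prime)
  haveI : NeZero (p ^ n) := ⟨pow_ne_zero _ hp.ne_zero⟩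
  have hcard : Nat.card W = p ^ (2 * n) := by
    rw [Nat.card_congr e.toEquiv, Nat.card_prod, Nat.card_congr Multiplicative.toAdd, Nat.card_zmod, ← pow_add, two_mul]
  have hW : IsPGroup p W := IsPGroup.of_card hcard
  have hexp : ∀ w : W, w ^ p ^ n = 1 := fun w => e.injective (by
    rw [map_pow, map_one]
    refine Prod.ext ?_ ?_ <;> exact Multiplicative.toAdd.injective (by simp))
  -- squares have index four
  set Q := (powMonoidHom p : W →* W).range with hQ
  have hQK : Q ≤ K := by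
    rintro _ ⟨w, rfl⟩
    show w ^ p ∈ K
    rw [← hK]; exact K.pow_index_mem w
  have hker : Nat.card ↥(powMonoidHom p : W →* W).ker ≤ p ^ 2 := by
    let i : ↥(powMonoidHom p : W →* W).ker →
        {x : Multiplicative (ZMod (p ^ n)) // x ^ p = 1} × {x : Multiplicative (ZMod (p ^ n)) // x ^ p = 1} :=
      fun x => (⟨(e x).1, by rw [← Prod.pow_fst, ← map_pow, show (x : W) ^ p = 1 from x.2, map_one]; rfl⟩,
        ⟨(e x).2, by rw [← Prod.pow_snd, ← map_pow, show (x : W) ^ p = 1 from x.2, map_one]; rfl⟩)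
    have h2 : Nat.card {x : Multiplicative (ZMod (p ^ n)) // x ^ p = 1} ≤ p := by
      rw [Nat.card_eq_fintype_card, Fintype.card_subtype]
      exact IsCyclic.card_pow_eq_one_le hp.pos
    refine (Nat.card_le_card_of_injective i fun x y h => ?_).trans (by rw [Nat.card_prod]; exact (Nat.mul_le_mul h2 h2).trans (pow_two p).ge)
    simp only [i, Prod.mk.injEq, Subtype.mk.injEq] at h
    exact Subtype.ext (e.injective (Prod.ext h.1 h.2))
  have hQi : Q.index ≤ p ^ 2 := by
    have h1 := (powMonoidHom p : W →* W).ker.card_mul_index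
    rw [Subgroup.index_ker, ← Q.card_mul_index, mul_comm (Nat.card ↥(powMonoidHom p : W →* W).ker)] at h1
    rw [← Nat.eq_of_mul_eq_mul_left Nat.card_pos h1]
    exact hker
  -- one generator over the squares and one over `K`
  have hrel : Q.relIndex K ≤ p := by
    have h1 := Subgroup.relIndex_mul_index hQK
    rw [hK] at h1
    have h2 : Q.relIndex K * p ≤ p * p := by rw [h1, ← pow_two]; exact hQi
    exact Nat.le_of_mul_le_mul_right h2 hp.pos
  have hgenK : ∃ k ∈ K, K ≤ Q ⊔ Subgroup.zpowers k := by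
    by_cases hle : K ≤ Q
    · exact ⟨1, K.one_mem, hle.trans le_sup_left⟩
    obtain ⟨k, hk, hkQ⟩ := SetLike.not_le_iff_exists.mp hle
    refine ⟨k, hk, (Subgroup.eq_of_le_of_card_ge (sup_le hQK (Subgroup.zpowers_le.mpr hk)) ?_).ge⟩
    have h1 := CfsgLib.Fusion.MaxClassSeries.card_mul_le hW (lt_of_le_of_ne (le_sup_left : Q ≤ Q ⊔ Subgroup.zpowers k)
      fun e' => hkQ (e'.ge (Subgroup.mem_sup_right (Subgroup.mem_zpowers k))))
    refine le_trans ?_ h1
    rw [← (Q.subgroupOf K).card_mul_index, Nat.card_congr (Subgroup.subgroupOfEquivOfLe hQK).toEquiv, mul_comm]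
    exact Nat.mul_le_mul_right _ hrel
  obtain ⟨k, hkK, hKgen⟩ := hgenK
  obtain ⟨y, hy⟩ : ∃ y, y ∉ K := by
    by_contra hall
    push Not at hall
    rw [show K = ⊤ from eq_top_iff.mpr fun w _ => hall w, Subgroup.index_top] at hK
    exact hp.ne_one hK.symm
  have htop : K ⊔ Subgroup.zpowers y = ⊤ := by
    refine Subgroup.eq_top_of_le_card _ ?_
    have h1 := CfsgLib.Fusion.MaxClassSeries.card_mul_le hW (lt_of_le_of_ne (le_sup_left : K ≤ K ⊔ Subgroup.zpowers y)
      fun e' => hy (e'.ge (Subgroup.mem_sup_right (Subgroup.mem_zpowers y))))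
    rw [← K.card_mul_index, hK, mul_comm]
    exact h1
  let pw : ℕ → W →* W := fun j => powMonoidHom (p ^ j)
  have hQmap : ∀ j, Q.map (pw j) = (pw (j + 1)).range := fun j => by
    rw [hQ, MonoidHom.range_eq_map, Subgroup.map_map, MonoidHom.range_eq_map]
    congr 1
    ext w
    show (w ^ p) ^ p ^ j = w ^ p ^ (j + 1)
    rw [← pow_mul, ← pow_succ']
  let c : ℕ → Subgroup W := fun i => if Even i then (pw (n - i / 2)).range else K.map (pw (n - 1 - i / 2))
  have hI : Inv A (2 * n) c := by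
    refine ⟨?_, ?_, fun i => inferInstance, fun i hi => ?_, fun i hi => ?_, fun a ha i z hz => ?_⟩
    · show (if Even 0 then _ else _) = ⊥
      rw [if_pos Even.zero]
      exact eq_bot_iff.mpr (by rintro _ ⟨w, rfl⟩; exact Subgroup.mem_bot.mpr (hexp w))
    · show (if Even (2 * n) then _ else _) = ⊤
      rw [if_pos (even_two_mul n), show n - 2 * n / 2 = 0 by omega]
      exact eq_top_iff.mpr fun w _ => ⟨w, by show w ^ p ^ 0 = w; rw [pow_zero, pow_one]⟩
    · obtain ⟨t, rfl | rfl⟩ := Nat.even_or_odd' i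
      · simp only [c, if_pos (even_two_mul t), if_neg (Nat.not_even_two_mul_add_one t)]
        rw [show n - 2 * t / 2 = (n - 1 - t) + 1 by omega, show (2 * t + 1) / 2 = t by omega, ← hQmap]
        exact Subgroup.map_mono hQK
      · simp only [c, if_neg (Nat.not_even_two_mul_add_one t), show 2 * t + 1 + 1 = 2 * (t + 1) by ring,
          if_pos (even_two_mul (t + 1))]
        rw [show n - 2 * (t + 1) / 2 = n - 1 - t by omega, show (2 * t + 1) / 2 = t by omega]
        exact Subgroup.map_le_range _ _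
    · obtain ⟨t, rfl | rfl⟩ := Nat.even_or_odd' i
      · simp only [c, if_pos (even_two_mul t), if_neg (Nat.not_even_two_mul_add_one t)]
        rw [show n - 2 * t / 2 = (n - 1 - t) + 1 by omega, show (2 * t + 1) / 2 = t by omega, ← hQmap]
        refine ⟨pw (n - 1 - t) k, Subgroup.mem_map_of_mem _ hkK, (Subgroup.map_mono hKgen).trans ?_⟩
        rw [Subgroup.map_sup, MonoidHom.map_zpowers]
      · simp only [c, if_neg (Nat.not_even_two_mul_add_one t), show 2 * t + 1 + 1 = 2 * (t + 1) by ring,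
          if_pos (even_two_mul (t + 1))]
        rw [show n - 2 * (t + 1) / 2 = n - 1 - t by omega, show (2 * t + 1) / 2 = t by omega]
        refine ⟨pw (n - 1 - t) y, ⟨y, rfl⟩, ?_⟩
        rw [MonoidHom.range_eq_map, ← htop, Subgroup.map_sup, MonoidHom.map_zpowers]
    · simp only [c] at hz ⊢
      split_ifs at hz ⊢
      · obtain ⟨w, rfl⟩ := hz
        exact ⟨a w, (map_pow a w _).symm⟩
      · obtain ⟨w, hw, rfl⟩ := hz
        exact ⟨a w, hinv a ha w hw, (map_pow a w _).symm⟩
  exact ⟨_, _, hI⟩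

/-- An abelian metacyclic group has distinct invariants or is homocyclic of rank two. -/
theorem dichotomy {W : Type u} [CommGroup W] [Finite W] {p : ℕ} [Fact p.Prime] (hW : IsPGroup p W)
    (hm : Cfsg.IsMetacyclic W) : (∀ A : Subgroup (MulAut W), ∃ (m : ℕ) (c : ℕ → Subgroup W), Inv A m c) ∨
      ∃ n : ℕ, 0 < n ∧ Nonempty (W ≃* Multiplicative (ZMod (p ^ n)) × Multiplicative (ZMod (p ^ n))) := by
  classical
  have hp : p.Prime := Fact.out
  obtain ⟨ι, _, d, hd1, ⟨φ⟩⟩ := CommGroup.equiv_prod_multiplicative_zmod_of_finite W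
  obtain ⟨m, hcardX⟩ := IsPGroup.iff_card.mp hW
  have hdp : ∀ i, ∃ e, d i = p ^ e := fun i => by
    have h1 : Nat.card (Multiplicative (ZMod (d i))) ∣ p ^ m := by
      rw [← hcardX, Nat.card_congr φ.toEquiv, Nat.card_pi]
      exact Finset.dvd_prod_of_mem _ (Finset.mem_univ i)
    rw [Nat.card_congr Multiplicative.toAdd, Nat.card_zmod] at h1
    obtain ⟨e, -, he⟩ := (Nat.dvd_prime_pow hp).mp h1
    exact ⟨e, he⟩
  choose e he using hdp
  obtain rfl : d = fun i => p ^ e i := funext he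
  have hpos : ∀ i, 0 < e i := fun i => Nat.pos_of_ne_zero fun h0 => by
    have := hd1 i
    simp only [h0] at this
    simp at this
  by_cases hinj : Function.Injective e
  · exact Or.inl (inv_of_distinct hW e hinj φ)
  obtain ⟨i, j, hij, hne⟩ : ∃ i j, e i = e j ∧ i ≠ j := by
    simpa [Function.Injective] using hinj
  have hι : Fintype.card ι ≤ 2 := by
    let g : (ι → Fin p) → {x : W // x ^ p = 1} := fun s => ⟨φ.symm fun i =>
      Multiplicative.ofAdd (((s i : ℕ) * p ^ (e i - 1) : ℕ) : ZMod (p ^ e i)), by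
      rw [← map_pow]
      refine (congrArg φ.symm (funext fun i => ?_)).trans (map_one φ.symm)
      refine Multiplicative.toAdd.injective ?_
      rw [Pi.pow_apply, Pi.one_apply, toAdd_pow, toAdd_ofAdd, toAdd_one, nsmul_eq_mul, ← Nat.cast_mul,
        mul_left_comm, ← pow_succ', Nat.sub_add_cancel (hpos i), Nat.cast_mul, ZMod.natCast_self, mul_zero]⟩
    have hg : Function.Injective g := fun s s' h => funext fun i => by
      have h1 := congrArg Multiplicative.toAdd (congrFun (φ.symm.injective (congrArg Subtype.val h)) i)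
      rw [toAdd_ofAdd, toAdd_ofAdd, ZMod.natCast_eq_natCast_iff'] at h1
      have hlt : ∀ a : Fin p, (a : ℕ) * p ^ (e i - 1) < p ^ e i := fun a => by
        conv_rhs => rw [← Nat.sub_add_cancel (hpos i), pow_succ']
        exact Nat.mul_lt_mul_of_pos_right a.2 (pow_pos hp.pos _)
      rw [Nat.mod_eq_of_lt (hlt _), Nat.mod_eq_of_lt (hlt _)] at h1
      exact Fin.ext (Nat.eq_of_mul_eq_mul_right (pow_pos hp.pos _) h1)
    have h4 := (Nat.card_le_card_of_injective g hg).trans
      (card_pow_eq_one_le hp.pos hm fun a b => mul_comm a b)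
    rw [Nat.card_fun, Nat.card_fin, Nat.card_eq_fintype_card] at h4
    exact (Nat.pow_le_pow_iff_right hp.one_lt).mp h4
  have huniv : ∀ k, k = i ∨ k = j := by
    intro k
    by_contra hk
    push Not at hk
    have h3 : ({k, i, j} : Finset ι).card = 3 := Finset.card_eq_three.mpr ⟨k, i, j, hk.1, hk.2, hne, rfl⟩
    have := Finset.card_le_univ ({k, i, j} : Finset ι)
    omega
  let c : Multiplicative (ZMod (p ^ e j)) ≃* Multiplicative (ZMod (p ^ e i)) :=
    (ZMod.ringEquivCongr (congrArg (p ^ ·) hij.symm)).toAddEquiv.toMultiplicative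
  let ψ : (∀ k, Multiplicative (ZMod (p ^ e k))) →* Multiplicative (ZMod (p ^ e i)) × Multiplicative (ZMod (p ^ e i)) :=
    MonoidHom.mk' (fun f => (f i, c (f j))) fun f g => Prod.ext rfl (map_mul c (f j) (g j))
  refine Or.inr ⟨e i, hpos i, ⟨φ.trans (MulEquiv.ofBijective ψ ⟨fun f g h => ?_, fun q => ?_⟩)⟩⟩
  · simp only [ψ, MonoidHom.mk'_apply, Prod.mk.injEq] at h
    funext k
    rcases huniv k with rfl | rfl
    · exact h.1
    · exact c.injective h.2
  · refine ⟨fun k => if hki : k = i then hki ▸ q.1 else if hkj : k = j then hkj ▸ c.symm q.2 else 1, ?_⟩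
    simp [ψ, hne.symm]

/-- Automorphisms of a nonabelian metacyclic group of odd prime power order, and of an abelian one with distinct invariants, fix a chain with cyclic steps. -/
theorem main {X : Type u} [Group X] [Finite X] {p : ℕ} [Fact p.Prime] (hp2 : p ≠ 2) (hX : IsPGroup p X)
    (hm : Cfsg.IsMetacyclic X)
    (hh : ¬ ∃ n : ℕ, 0 < n ∧ Nonempty (X ≃* Multiplicative (ZMod (p ^ n)) × Multiplicative (ZMod (p ^ n)))) :
    ∃ (m : ℕ) (c : ℕ → Subgroup X), Inv (⊤ : Subgroup (MulAut X)) m c := by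
  classical
  have hp : p.Prime := Fact.out
  by_cases hab : ∀ a b : X, a * b = b * a
  · letI : CommGroup X := { ‹Group X› with mul_comm := hab }
    exact (dichotomy hX hm).elim (fun h => h ⊤) (fun h => absurd h hh)
  obtain ⟨N, hNn, hNc, hNq⟩ := hm
  haveI := hNn
  haveI := hNc
  haveI := hNq
  set C := commutator X with hCdef
  have hCN : C ≤ N := by
    refine (Subgroup.Normal.quotient_commutative_iff_commutator_le).mp ⟨⟨fun a b => ?_⟩⟩
    letI := hNq.commGroup
    exact mul_comm a b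
  haveI hCc : IsCyclic ↥C := isCyclic_of_injective (Subgroup.inclusion hCN) (Subgroup.inclusion_injective hCN)
  obtain ⟨⟨c, hcC⟩, hc⟩ := hCc.exists_generator
  have hCz : ∀ y ∈ C, ∃ i : ℤ, y = c ^ i := fun y hy => by
    obtain ⟨i, hi⟩ := hc ⟨y, hy⟩
    exact ⟨i, (congrArg Subtype.val hi).symm⟩
  have hCinv : ∀ σ : MulAut X, ∀ y ∈ C, σ y ∈ C := fun σ y hy =>
    Subgroup.characteristic_iff_le_comap.mp inferInstance σ hy
  have hmq : Cfsg.IsMetacyclic (X ⧸ C) := by
    refine ⟨N.map (QuotientGroup.mk' C), hNn.map _ (QuotientGroup.mk'_surjective C), ?_, ?_⟩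
    · exact isCyclic_of_surjective ((QuotientGroup.mk' C).subgroupMap N) ((QuotientGroup.mk' C).subgroupMap_surjective N)
    · haveI := hNn.map _ (QuotientGroup.mk'_surjective C)
      exact isCyclic_of_surjective (QuotientGroup.map N (N.map (QuotientGroup.mk' C)) (QuotientGroup.mk' C)
        (fun y hy => ⟨y, hy, rfl⟩)) (fun q => by
          obtain ⟨q', rfl⟩ := QuotientGroup.mk'_surjective _ q
          obtain ⟨y, rfl⟩ := QuotientGroup.mk'_surjective _ q'
          exact ⟨QuotientGroup.mk' N y, rfl⟩)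
  letI : CommGroup (X ⧸ C) := { (inferInstance : Group (X ⧸ C)) with
    mul_comm := ((Subgroup.Normal.quotient_commutative_iff_commutator_le).mpr le_rfl).is_comm.comm }
  let ind : MulAut X → MulAut (X ⧸ C) := fun σ => QuotientGroup.congr C C σ
    (le_antisymm (by rintro _ ⟨y, hy, rfl⟩; exact hCinv σ y hy)
      fun y hy => ⟨σ.symm y, hCinv σ.symm y hy, σ.apply_symm_apply y⟩)
  -- lift a chain of the abelianization
  have lift : ∀ (A : Subgroup (MulAut (X ⧸ C))), (∀ σ, ind σ ∈ A) →
      (∃ (m : ℕ) (d : ℕ → Subgroup (X ⧸ C)), Inv A m d) → ∃ (m : ℕ) (d : ℕ → Subgroup X), Inv (⊤ : Subgroup (MulAut X)) m d := by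
    rintro A hA ⟨m, d, hd⟩
    refine ⟨m + 1, fun i => match i with | 0 => ⊥ | i + 1 => (d i).comap (QuotientGroup.mk' C), rfl, ?_, fun i => ?_,
      fun i hi => ?_, fun i hi => ?_, fun σ _ i y hy => ?_⟩
    · show (d m).comap (QuotientGroup.mk' C) = ⊤
      rw [hd.top, Subgroup.comap_top]
    · match i with
      | 0 => exact (inferInstance : (⊥ : Subgroup X).Normal)
      | i + 1 => exact (hd.normal i).comap _
    · match i with
      | 0 => exact bot_le
      | i + 1 => exact Subgroup.comap_mono (hd.le i (by omega))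
    · match i with
      | 0 =>
        refine ⟨c, ?_, fun y hy => Subgroup.mem_sup_right ?_⟩
        · show QuotientGroup.mk' C c ∈ d 0
          rw [(QuotientGroup.eq_one_iff c).mpr hcC |> fun h => (h : QuotientGroup.mk' C c = 1)]
          exact one_mem _
        · have hy' : QuotientGroup.mk' C y ∈ d 0 := hy
          rw [hd.bot, Subgroup.mem_bot] at hy'
          obtain ⟨k, rfl⟩ := hCz y ((QuotientGroup.eq_one_iff y).mp hy')
          exact ⟨k, rfl⟩
      | i + 1 =>
        obtain ⟨x, hx, hle⟩ := hd.cyc i (by omega)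
        obtain ⟨x, rfl⟩ := QuotientGroup.mk'_surjective C x
        refine ⟨x, hx, fun y hy => ?_⟩
        obtain ⟨u, hu, _, ⟨k, rfl⟩, huv⟩ := Subgroup.mem_sup.mp (hle hy)
        have h1 : y * (x ^ k)⁻¹ ∈ (d i).comap (QuotientGroup.mk' C) := by
          show QuotientGroup.mk' C (y * (x ^ k)⁻¹) ∈ d i
          rw [map_mul, map_inv, map_zpow, ← huv, mul_inv_cancel_right]
          exact hu
        have h2 := Subgroup.mul_mem_sup h1 (Subgroup.zpow_mem _ (Subgroup.mem_zpowers x) k)
        rwa [inv_mul_cancel_right] at h2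
    · match i with
      | 0 =>
        change y ∈ (⊥ : Subgroup X) at hy
        show σ y ∈ (⊥ : Subgroup X)
        rw [Subgroup.mem_bot] at hy ⊢
        rw [hy, map_one]
      | i + 1 => exact hd.inv _ (hA σ) i _ hy
  rcases dichotomy (hX.to_quotient C) hmq with h | ⟨n, hn, ⟨e⟩⟩
  · exact lift ⊤ (fun _ => trivial) (h ⊤)
  -- homocyclic abelianization: the `p ^ n` powers give a line
  haveI : NeZero (p ^ n) := ⟨pow_ne_zero _ hp.ne_zero⟩
  have hexp : ∀ y : X, y ^ p ^ n ∈ C := fun y => (QuotientGroup.eq_one_iff _).mp (by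
    rw [QuotientGroup.mk_pow]
    refine e.injective ?_
    rw [map_pow, map_one]
    refine Prod.ext ?_ ?_ <;> exact Multiplicative.toAdd.injective (by simp))
  set L := Subgroup.zpowers (c ^ p) with hLdef
  have hLC : L ≤ C := Subgroup.zpowers_le.mpr (C.pow_mem hcC p)
  have hLinv : ∀ σ : MulAut X, ∀ y ∈ L, σ y ∈ L := by
    rintro σ _ ⟨k, rfl⟩
    obtain ⟨i, hi⟩ := hCz _ (hCinv σ c hcC)
    show σ ((c ^ p) ^ k) ∈ L
    rw [map_zpow, map_pow, hi]
    refine L.zpow_mem ⟨i, ?_⟩ k
    show (c ^ p) ^ i = (c ^ i) ^ p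
    rw [← zpow_natCast, ← zpow_natCast, ← zpow_mul, ← zpow_mul, mul_comm]
  haveI hLn : L.Normal := ⟨fun y hy g => hLinv (MulAut.conj g) y hy⟩
  set π := QuotientGroup.mk' L with hπdef
  have hc1 : c ≠ 1 := fun h => hab fun a b => commutatorElement_eq_one_iff_mul_comm.mp (by
    obtain ⟨i, hi⟩ := hCz _ (Subgroup.commutator_mem_commutator (Subgroup.mem_top a) (Subgroup.mem_top b))
    rw [hi, h, one_zpow])
  have hcL : c ∉ L := fun h => by
    obtain ⟨k, hk⟩ := Subgroup.mem_zpowers_iff.mp h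
    obtain ⟨l, hl⟩ := hX c
    obtain ⟨l', -, hl'⟩ := (Nat.dvd_prime_pow hp).mp (orderOf_dvd_of_pow_eq_one hl)
    have h1 : c ^ ((p : ℤ) * k - 1) = 1 := by
      rw [zpow_sub, zpow_mul, zpow_natCast, hk, zpow_one, mul_inv_cancel]
    have h2 : (orderOf c : ℤ) ∣ (p : ℤ) * k - 1 := orderOf_dvd_iff_zpow_eq_one.mpr h1
    rcases Nat.eq_zero_or_pos l' with rfl | hl0
    · exact hc1 (orderOf_eq_one_iff.mp (by simpa using hl'))
    · have h3 : (p : ℤ) ∣ (p : ℤ) * k - 1 := (Int.natCast_dvd_natCast.mpr (hl' ▸ dvd_pow_self p hl0.ne')).trans h2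
      have h4 : (p : ℤ) ∣ 1 := by simpa using dvd_sub (dvd_mul_right (p : ℤ) k) h3
      exact hp.ne_one (Nat.dvd_one.mp (Int.natCast_dvd_natCast.mp (by exact_mod_cast h4)))
  have hπc : π c ^ p = 1 := by
    rw [← map_pow]; exact (QuotientGroup.eq_one_iff _).mpr (Subgroup.mem_zpowers _)
  have hπC : ∀ y ∈ C, π y ∈ Subgroup.zpowers (π c) := fun y hy => by
    obtain ⟨i, rfl⟩ := hCz y hy
    exact ⟨i, (map_zpow π c i).symm⟩
  have hcard : Nat.card ↥(Subgroup.zpowers (π c)) = p := by
    rw [Nat.card_zpowers]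
    exact orderOf_eq_prime hπc fun h => hcL ((QuotientGroup.eq_one_iff c).mp h)
  have hcen : ∀ (g : X ⧸ L), ∀ w ∈ Subgroup.zpowers (π c), g * w = w * g := by
    intro g w hw
    obtain ⟨g, rfl⟩ := QuotientGroup.mk'_surjective L g
    have hg : π g ∈ Subgroup.normalizer ((Subgroup.zpowers (π c) : Subgroup (X ⧸ L)) : Set (X ⧸ L)) := by
      refine Subgroup.mem_normalizer_fintype fun y hy => ?_
      obtain ⟨i, rfl⟩ := hy
      show π g * π c ^ i * (π g)⁻¹ ∈ _
      rw [← map_zpow, ← map_inv, ← map_mul, ← map_mul]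
      exact hπC _ ((inferInstance : C.Normal).conj_mem _ (C.zpow_mem hcC i) g)
    exact (Subgroup.mem_centralizer_iff.mp
      (CfsgLib.MaxClass.normalizer_le_centralizer_of_prime (hX.to_quotient L) _ hcard hg) w hw).symm
  let f : X →* X ⧸ L := MonoidHom.mk' (fun y => π y ^ p ^ n) fun u v => by
    have hcm : ⁅π v, π u⁆ ∈ Subgroup.zpowers (π c) := by
      rw [← map_commutatorElement]
      exact hπC _ (Subgroup.commutator_mem_commutator (Subgroup.mem_top v) (Subgroup.mem_top u))
    show π (u * v) ^ p ^ n = π u ^ p ^ n * π v ^ p ^ n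
    rw [map_mul, CfsgLib.Fusion.EssentialFour.mul_pow_of_central (fun g => hcen g _ hcm)]
    obtain ⟨r, hr⟩ : p ∣ (p ^ n).choose 2 :=
      hp.dvd_choose_pow (by norm_num) fun h => hp2 ((Nat.prime_dvd_prime_iff_eq hp Nat.prime_two).mp
        (h ▸ dvd_pow_self p hn.ne'))
    obtain ⟨i, hi⟩ := hcm
    change π c ^ i = _ at hi
    rw [← hi, hr, pow_mul, ← zpow_natCast (π c ^ i) p, ← zpow_mul, mul_comm i, zpow_mul, zpow_natCast, hπc, one_zpow,
      one_pow, one_mul]
  have hfv : ∀ y, f y = π (y ^ p ^ n) := fun y => (map_pow π y _).symm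
  have hfC : C ≤ f.ker := fun y hy => by
    obtain ⟨i, hi⟩ := hπC y hy
    change π c ^ i = π y at hi
    show π y ^ p ^ n = 1
    rw [← hi, ← zpow_natCast, ← zpow_mul, mul_comm, zpow_mul, zpow_natCast,
      show p ^ n = p * p ^ (n - 1) by rw [← pow_succ']; congr 1; omega, pow_mul, hπc, one_pow, one_zpow]
  obtain ⟨a, ha⟩ := hNc.exists_generator
  have hfa : f a ≠ 1 := by
    intro h
    rw [hfv] at h
    have haL : (a : X) ^ p ^ n ∈ L := (QuotientGroup.eq_one_iff _).mp h
    have hle : Nat.card ↥N ≤ p ^ n * Nat.card ↥L := by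
      rw [← orderOf_eq_card_of_forall_mem_zpowers ha, ← Subgroup.orderOf_coe]
      refine Nat.le_of_dvd (Nat.mul_pos (pow_pos hp.pos n) Nat.card_pos) (orderOf_dvd_of_pow_eq_one ?_)
      rw [pow_mul]
      exact congrArg Subtype.val (pow_card_eq_one' (x := (⟨_, haL⟩ : ↥L)))
    have hidx : N.index ≤ p ^ n := by
      obtain ⟨b, hb⟩ := hNq.exists_generator
      rw [Subgroup.index, ← orderOf_eq_card_of_forall_mem_zpowers hb]
      obtain ⟨y, rfl⟩ := QuotientGroup.mk'_surjective N b
      refine Nat.le_of_dvd (pow_pos hp.pos n) (orderOf_dvd_of_pow_eq_one ?_)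
      rw [← map_pow]
      exact (QuotientGroup.eq_one_iff _).mpr (hCN (hexp y))
    have hlt : Nat.card ↥L < Nat.card ↥C :=
      Set.Finite.card_lt_card (Set.toFinite _) (lt_of_le_of_ne hLC fun e => hcL (e.ge hcC))
    have h1 := N.card_mul_index
    rw [Subgroup.card_eq_card_quotient_mul_card_subgroup C, Nat.card_congr e.toEquiv, Nat.card_prod,
      Nat.card_congr Multiplicative.toAdd, Nat.card_zmod] at h1
    have h2 := Nat.mul_le_mul hle hidx
    have h3 : p ^ n * p ^ n * Nat.card ↥L < p ^ n * p ^ n * Nat.card ↥C :=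
      Nat.mul_lt_mul_of_pos_left hlt (Nat.mul_pos (pow_pos hp.pos n) (pow_pos hp.pos n))
    rw [h1, mul_right_comm (p ^ n) (Nat.card ↥L)] at h2
    exact absurd h2 (Nat.not_le.mpr h3)
  have hrange : f.range = Subgroup.zpowers (π c) := by
    refine Subgroup.eq_of_le_of_card_ge (by rintro _ ⟨y, rfl⟩; rw [hfv]; exact hπC _ (hexp y)) ?_
    rw [hcard]
    obtain ⟨k, hk⟩ := IsPGroup.iff_card.mp ((hX.to_quotient L).to_subgroup f.range)
    rw [hk]
    refine Nat.le_self_pow (fun h0 => hfa ?_) p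
    rw [h0, pow_zero] at hk
    exact Subgroup.mem_bot.mp ((Subgroup.eq_bot_of_card_eq _ hk) ▸ (⟨a, rfl⟩ : f a ∈ f.range))
  have hKi : (f.ker.map (QuotientGroup.mk' C)).index = p := by
    rw [Subgroup.index_map_eq _ (QuotientGroup.mk'_surjective C) (by rw [QuotientGroup.ker_mk']; exact hfC),
      Subgroup.index_ker, hrange, hcard]
  set K := f.ker.map (QuotientGroup.mk' C) with hKdef
  let A : Subgroup (MulAut (X ⧸ C)) :=
    { carrier := {τ | ∀ y, y ∈ K ↔ τ y ∈ K}
      one_mem' := fun y => Iff.rfl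
      mul_mem' := fun {s t} hs ht y => (ht y).trans (hs (t y))
      inv_mem' := fun {s} hs y => by
        have := (hs (s⁻¹ y)).symm
        rwa [MulAut.apply_inv_self] at this }
  have hker : ∀ σ : MulAut X, ∀ y ∈ f.ker, σ y ∈ f.ker := fun σ y hy => by
    rw [MonoidHom.mem_ker, hfv] at hy ⊢
    rw [← map_pow σ]
    exact (QuotientGroup.eq_one_iff _).mpr (hLinv σ _ ((QuotientGroup.eq_one_iff _).mp hy))
  refine lift A (fun σ q => ?_) (inv_of_index hn e A K hKi fun s hs y hy => (hs y).mp hy)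
  have key : ∀ σ : MulAut X, ∀ q, q ∈ K → ind σ q ∈ K := by
    rintro σ _ ⟨y, hy, rfl⟩
    exact ⟨σ y, hker σ y hy, rfl⟩
  refine ⟨key σ q, fun h => ?_⟩
  obtain ⟨y, rfl⟩ := QuotientGroup.mk'_surjective C q
  have h1 := key σ.symm _ h
  rwa [show ind σ.symm (ind σ (QuotientGroup.mk' C y)) = QuotientGroup.mk' C y from
    congrArg (QuotientGroup.mk' C) (σ.symm_apply_apply y)] at h1

end CfsgLib.Metacyclic.OddAut
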