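import Cfsg.Agent.Lib.Metacyclic.Basic

set_option autoImplicit false

universe u

namespace CfsgLib.Metacyclic.Setting

open Num Form
open scoped commutatorElement

variable {G : Type u} [Group G] [Finite G] {p : ℕ} (S : Setting G p)

include S

theorem card_mul_index_center : Nat.card (Subgroup.center G) * (p ^ S.n * p ^ S.n) = Nat.card G := by
  rw [← S.index_center, Subgroup.card_mul_index]

theorem card_commutator : Nat.card (commutator G) = p ^ S.n := by
  have hZ : Nat.card (Subgroup.zpowers (S.a ^ p ^ S.s)) = p ^ S.n := by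
    rw [Nat.card_zpowers, orderOf_pow, S.orderA]
    rcases le_total S.m S.s with h | h
    · rw [Nat.gcd_eq_left (pow_dvd_pow p h), Nat.div_self (pow_pos S.hp.pos _)]
      simp [n, Nat.sub_eq_zero_of_le h]
    · rw [Nat.gcd_eq_right (pow_dvd_pow p h), Nat.pow_div h S.hp.pos]; rfl
  rw [← hZ]
  apply congrArg (fun H : Subgroup G => Nat.card H)
  apply le_antisymm
  · rw [commutator_def, Subgroup.commutator_le]
    intro g _ h _
    obtain ⟨i, j, rfl⟩ := S.gen g
    obtain ⟨k, l, rfl⟩ := S.gen h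
    refine ⟨(S.e : ℤ) * ((k : ℤ) * geo S.r j - i * geo S.r l), ?_⟩
    simp only
    have hcom : ⁅S.a ^ i * S.b ^ j, S.a ^ k * S.b ^ l⁆ =
        (S.a ^ i * S.b ^ j * (S.a ^ k * S.b ^ l)) * ((S.a ^ k * S.b ^ l) * (S.a ^ i * S.b ^ j))⁻¹ := by
      rw [commutatorElement_def]; group
    rw [← zpow_natCast, ← zpow_mul, hcom, S.mul_eq, S.mul_eq, add_comm l j, mul_inv_rev,
      mul_assoc, mul_inv_cancel_left, ← zpow_natCast, ← zpow_natCast S.a (k + i * S.r ^ l), ← zpow_neg, ← zpow_add]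
    congr 1
    rw [S.r_pow, S.r_pow]; push_cast; ring
  · rw [Subgroup.zpowers_le]
    have h1 : S.a ^ (p ^ S.s * S.e) ∈ commutator G := by
      have : S.a ^ (p ^ S.s * S.e) = ⁅S.b, S.a⁆ := by
        rw [commutatorElement_def, S.conj, add_comm, pow_succ]; group
      rw [this]
      exact Subgroup.commutator_mem_commutator (Subgroup.mem_top _) (Subgroup.mem_top _)
    have hcop : Nat.Coprime S.e (orderOf (S.a ^ p ^ S.s)) := by
      refine Nat.Coprime.coprime_dvd_right (orderOf_pow_dvd _) ?_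
      rw [S.orderA]
      exact ((S.hp.coprime_iff_not_dvd.mpr S.he).pow_left _).symm
    obtain ⟨t, ht⟩ := exists_pow_eq_self_of_coprime hcop
    rw [pow_mul] at h1
    exact ht ▸ Subgroup.pow_mem _ h1 t

theorem index_commutator : (commutator G).index = p ^ S.n * Nat.card (Subgroup.center G) := by
  have h1 := Subgroup.card_mul_index (commutator G)
  rw [S.card_commutator, ← S.card_mul_index_center] at h1
  refine Nat.eq_of_mul_eq_mul_left (pow_pos S.hp.pos S.n) ?_
  rw [h1]; ring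

theorem card_image_le (H : Subgroup G) : Nat.card H ≤ Nat.card (S.image H) * Nat.card (Subgroup.center G) := by
  rw [S.card_eq H]
  exact Nat.mul_le_mul_left _ (Subgroup.card_le_of_le inf_le_right)

theorem card_of_center_le {H : Subgroup G} (h : Subgroup.center G ≤ H) :
    Nat.card H = Nat.card (S.image H) * Nat.card (Subgroup.center G) := by
  rw [S.card_eq H, inf_eq_right.mpr h]

theorem center_mem (z : G) (hz : z ∈ Subgroup.center G) :
    ∃ i j : ℕ, z = (S.a ^ p ^ S.n) ^ i * (S.b ^ p ^ S.n) ^ j := by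
  obtain ⟨i, j, rfl⟩ := S.gen z
  rw [S.mem_center_iff, S.v_eq, Prod.mk_eq_zero, ZMod.natCast_eq_zero_iff, ZMod.natCast_eq_zero_iff,
    dvd_geo_iff S.hp S.hp2 S.r_dvd] at hz
  obtain ⟨⟨i', rfl⟩, ⟨j', rfl⟩⟩ := hz
  exact ⟨i', j', by rw [pow_mul, pow_mul]⟩

theorem pow_mem_center (g : G) : g ^ p ^ S.n ∈ Subgroup.center G := by
  obtain ⟨x, hx, hk⟩ := S.v_pow g
  rw [S.mem_center_iff, hk, (ZMod.natCast_eq_zero_iff _ _).mpr ((dvd_geo_iff S.hp S.hp2 hx _ _).mpr dvd_rfl),
    zero_smul]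

theorem center_le_of_not_comm {H : Subgroup G} (h : ¬ IsMulCommutative H) : Subgroup.center G ≤ H := by
  haveI := S.neZero
  haveI : Fact p.Prime := ⟨S.hp⟩
  rw [S.comm_iff] at h
  obtain ⟨w, hw, hwp⟩ := Set.not_subset.mp h
  rw [SetLike.mem_coe, mem_perp] at hwp
  push Not at hwp
  obtain ⟨u, hu, hd⟩ := hwp
  obtain ⟨k, hk, d', hd', hdk⟩ := exists_pow_mul S.hp _ hd
  have hall : ∀ z, (p : ZMod (p ^ S.n)) ^ (S.n - 1) • z ∈ S.image H := by
    intro z
    have h1 : det u w • z = det z w • u + det u z • w := by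
      ext <;> simp only [det, Prod.fst_add, Prod.snd_add, Prod.smul_fst, Prod.smul_snd, smul_eq_mul] <;> ring
    have h2 : det u w • z ∈ S.image H := h1 ▸ (S.image H).add_mem (smul_mem _ hu) (smul_mem _ hw)
    obtain ⟨d'', rfl⟩ := hd'
    have h3 := smul_mem ((p : ZMod (p ^ S.n)) ^ (S.n - 1 - k) * (↑d''⁻¹ : ZMod (p ^ S.n))) h2
    rwa [hdk, smul_smul, show (p : ZMod (p ^ S.n)) ^ (S.n - 1 - k) * (↑d''⁻¹ : ZMod (p ^ S.n)) * ((p : ZMod (p ^ S.n)) ^ k * ↑d'') =
      (p : ZMod (p ^ S.n)) ^ (S.n - 1 - k) * (p : ZMod (p ^ S.n)) ^ k * ((↑d''⁻¹ : ZMod (p ^ S.n)) * ↑d'') by ring,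
      Units.inv_mul, mul_one, ← pow_add, show S.n - 1 - k + k = S.n - 1 by omega] at h3
  have hpn : ∀ g : G, ∃ k ∈ H ⊓ Subgroup.center G, ∃ z ∈ Subgroup.center G, g ^ p ^ S.n = k * z ^ p := by
    intro g
    obtain ⟨x, hx, hk'⟩ := S.v_pow g
    have hdiv : p ^ (S.n - 1) ∣ geo x (p ^ (S.n - 1)) := (dvd_geo_iff S.hp S.hp2 hx _ _).mpr dvd_rfl
    obtain ⟨q, hq⟩ := hdiv
    have hmem : S.v (g ^ p ^ (S.n - 1)) ∈ S.image H := by
      rw [hk', hq, Nat.cast_mul, Nat.cast_pow, mul_smul]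
      exact hall _
    obtain ⟨y, hy, hyv⟩ := hmem
    have hz := (S.v_eq_iff _ _).mp hyv
    set z := y⁻¹ * g ^ p ^ (S.n - 1) with hzdef
    have hyz : g ^ p ^ S.n = y ^ p * z ^ p := by
      have : g ^ p ^ (S.n - 1) = y * z := by rw [hzdef, mul_inv_cancel_left]
      rw [← Commute.mul_pow (Subgroup.mem_center_iff.mp hz y), ← this, ← pow_mul, ← pow_succ,
        show S.n - 1 + 1 = S.n by omega]
    refine ⟨y ^ p, ⟨H.pow_mem hy p, ?_⟩, z, hz, hyz⟩
    have := Subgroup.mul_mem _ (S.pow_mem_center g) (Subgroup.inv_mem _ (Subgroup.pow_mem _ hz p))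
    rwa [hyz, mul_inv_cancel_right] at this
  have hstep : ∀ z ∈ Subgroup.center G, ∃ k ∈ H ⊓ Subgroup.center G, ∃ z' ∈ Subgroup.center G, z = k * z' ^ p := by
    have hmul : ∀ k1 k2 z1 z2 : G, k2 ∈ Subgroup.center G → z1 ∈ Subgroup.center G →
        (k1 * z1 ^ p) * (k2 * z2 ^ p) = (k1 * k2) * (z1 * z2) ^ p := by
      intro k1 k2 z1 z2 hk2 hz1
      rw [Commute.mul_pow (Subgroup.mem_center_iff.mp hz1 z2).symm]
      rw [mul_assoc k1, ← mul_assoc (z1 ^ p), Subgroup.mem_center_iff.mp hk2 (z1 ^ p)]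
      group
    have hpows : ∀ (g : G) (i : ℕ), ∃ k ∈ H ⊓ Subgroup.center G, ∃ z' ∈ Subgroup.center G, (g ^ p ^ S.n) ^ i = k * z' ^ p := by
      intro g i
      induction i with
      | zero => exact ⟨1, Subgroup.one_mem _, 1, Subgroup.one_mem _, by simp⟩
      | succ i ih =>
        obtain ⟨k1, hk1, z1, hz1, e1⟩ := ih
        obtain ⟨k2, hk2, z2, hz2, e2⟩ := hpn g
        exact ⟨k1 * k2, Subgroup.mul_mem _ hk1 hk2, z1 * z2, Subgroup.mul_mem _ hz1 hz2, by
          rw [pow_succ, e1, e2, hmul _ _ _ _ hk2.2 hz1]⟩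
    intro z hz
    obtain ⟨i, j, rfl⟩ := S.center_mem z hz
    obtain ⟨k1, hk1, z1, hz1, e1⟩ := hpows S.a i
    obtain ⟨k2, hk2, z2, hz2, e2⟩ := hpows S.b j
    exact ⟨k1 * k2, Subgroup.mul_mem _ hk1 hk2, z1 * z2, Subgroup.mul_mem _ hz1 hz2, by
      rw [e1, e2, hmul _ _ _ _ hk2.2 hz1]⟩
  have hiter : ∀ (t : ℕ), ∀ z ∈ Subgroup.center G, ∃ k ∈ H ⊓ Subgroup.center G, ∃ z' ∈ Subgroup.center G, z = k * z' ^ p ^ t := by
    intro t
    induction t with
    | zero => intro z hz; exact ⟨1, Subgroup.one_mem _, z, hz, by simp⟩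
    | succ t ih =>
      intro z hz
      obtain ⟨k1, hk1, z1, hz1, e1⟩ := ih z hz
      obtain ⟨k2, hk2, z2, hz2, e2⟩ := hstep z1 hz1
      refine ⟨k1 * k2 ^ p ^ t, Subgroup.mul_mem _ hk1 (Subgroup.pow_mem _ hk2 _), z2, hz2, ?_⟩
      rw [e1, e2, Commute.mul_pow (Subgroup.mem_center_iff.mp hk2.2 _).symm, ← pow_mul, ← pow_succ', mul_assoc]
  intro z hz
  obtain ⟨k, hk, z', hz', rfl⟩ := hiter (S.m + S.f) z hz
  refine H.mul_mem hk.1 ?_
  obtain ⟨i, j, rfl⟩ := S.gen z'
  have hb : S.b ^ p ^ (S.m + S.f) = 1 := by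
    obtain ⟨t, ht⟩ := (S.cosets (p ^ S.f)).mpr dvd_rfl
    simp only at ht
    rw [add_comm, pow_add, pow_mul, ← ht, ← zpow_natCast, zpow_comm, zpow_natCast, ← S.orderA, pow_orderOf_eq_one, one_zpow]
  have h1 : orderOf (S.a ^ i * S.b ^ j) ∣ p ^ (S.m + S.f) := by
    refine (Subgroup.orderOf_dvd_natCard (⊤ : Subgroup G) trivial).trans ?_
    rw [Subgroup.card_top]
    have hle : (⊤ : Subgroup G) = Subgroup.closure {S.a, S.b} := by
      rw [eq_comm, eq_top_iff]
      intro g _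
      obtain ⟨x, y, rfl⟩ := S.gen g
      exact mul_mem (pow_mem (Subgroup.subset_closure (by simp)) _) (pow_mem (Subgroup.subset_closure (by simp)) _)
    have hfin : Function.Surjective (fun x : Fin (p ^ S.m) × Fin (p ^ S.f) => S.a ^ (x.1 : ℕ) * S.b ^ (x.2 : ℕ)) := by
      intro g
      obtain ⟨x, y, rfl⟩ := S.gen g
      obtain ⟨t, ht⟩ := mem_powers_iff_mem_zpowers.mpr ((S.cosets (p ^ S.f * (y / p ^ S.f))).mpr (dvd_mul_right _ _))
      refine ⟨⟨⟨(x + t) % p ^ S.m, Nat.mod_lt _ (pow_pos S.hp.pos _)⟩, ⟨y % p ^ S.f, Nat.mod_lt _ (pow_pos S.hp.pos _)⟩⟩, ?_⟩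
      simp only at ht ⊢
      conv_rhs => rw [← Nat.mod_add_div y (p ^ S.f), add_comm, pow_add S.b, ← ht]
      rw [← mul_assoc, ← pow_add, ← S.orderA, pow_mod_orderOf]
    have hinj : Function.Injective (fun x : Fin (p ^ S.m) × Fin (p ^ S.f) => S.a ^ (x.1 : ℕ) * S.b ^ (x.2 : ℕ)) := by
      have hcore : ∀ i j i' j' : ℕ, j ≤ j' → S.a ^ i * S.b ^ j = S.a ^ i' * S.b ^ j' →
          j' < p ^ S.f → j = j' := by
        intro i j i' j' hle he hlt
        obtain ⟨d, rfl⟩ := Nat.exists_eq_add_of_le hle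
        rw [show S.a ^ i' * S.b ^ (j + d) = (S.a ^ i' * S.b ^ d) * S.b ^ j by rw [add_comm, pow_add, mul_assoc]] at he
        have he' : S.b ^ d = (S.a ^ i')⁻¹ * S.a ^ i := by rw [mul_right_cancel he]; group
        have := Nat.eq_zero_of_dvd_of_lt ((S.cosets d).mp (he' ▸ mul_mem (inv_mem (pow_mem (Subgroup.mem_zpowers _) _)) (pow_mem (Subgroup.mem_zpowers _) _))) (by omega)
        omega
      rintro ⟨i, j⟩ ⟨i', j'⟩ he
      simp only at he
      have hj : (j : ℕ) = j' := by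
        rcases le_total (j : ℕ) j' with hle | hle
        · exact hcore _ _ _ _ hle he j'.2
        · exact (hcore _ _ _ _ hle he.symm j.2).symm
      rw [hj, mul_left_inj, pow_eq_pow_iff_modEq, S.orderA] at he
      exact Prod.ext (Fin.ext (Nat.ModEq.eq_of_lt_of_lt he i.2 i'.2)) (Fin.ext hj)
    rw [← Nat.card_eq_of_bijective _ ⟨hinj, hfin⟩, Nat.card_prod, Nat.card_fin, Nat.card_fin, ← pow_add]
  rw [orderOf_dvd_iff_pow_eq_one.mp h1]
  exact H.one_mem

theorem center_le_or_comm (H : Subgroup G) : IsMulCommutative H ∨ Subgroup.center G ≤ H :=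
  (em _).imp id S.center_le_of_not_comm

theorem comm_iff_card (H : Subgroup G) : IsMulCommutative H ↔ Nat.card H ≤ (commutator G).index := by
  haveI := S.neZero
  rw [S.index_commutator]
  constructor
  · intro h
    rw [S.comm_iff, le_perp_iff S.hp] at h
    exact (S.card_image_le H).trans (Nat.mul_le_mul_right _ h)
  · intro h
    by_contra hne
    apply hne
    rw [S.comm_iff, le_perp_iff S.hp]
    rw [S.card_of_center_le (S.center_le_of_not_comm hne)] at h
    exact Nat.le_of_mul_le_mul_right h Nat.card_pos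

theorem maximal_comm_iff (H : Subgroup G) :
    Maximal (fun K : Subgroup G => IsMulCommutative K) H ↔ Nat.card H = (commutator G).index := by
  haveI := S.neZero
  constructor
  · intro h
    have hc := h.1
    -- the preimage of the image is abelian
    have hU := (S.comm_iff H).mp hc
    have hK : IsMulCommutative (S.preimage (S.image H)) := by
      rw [S.comm_iff, S.image_preimage]; exact hU
    have hHK : H ≤ S.preimage (S.image H) := fun g hg => ⟨g, hg, rfl⟩
    have hZ : Subgroup.center G ≤ H := (S.center_le_preimage _).trans (h.2 hK hHK)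
    have hperp : perp (S.image H) ≤ S.image H := by
      intro w hw
      obtain ⟨g, rfl⟩ := S.v_surjective w
      let U' := S.image H ⊔ AddSubgroup.zmultiples (S.v g)
      have hU' : U' ≤ perp U' := by
        rw [sup_le_iff]
        constructor
        · intro x hx u hu
          obtain ⟨y, hy, z, hz, rfl⟩ := AddSubgroup.mem_sup.mp hu
          obtain ⟨k, rfl⟩ := AddSubgroup.mem_zmultiples_iff.mp hz
          rw [det_add_left, hU hx y hy, zero_add, ← Int.cast_smul_eq_zsmul (ZMod (p ^ S.n)), det_smul_left,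
            det_swap, hw x hx, neg_zero, mul_zero]
        · rw [AddSubgroup.zmultiples_le]
          intro u hu
          obtain ⟨y, hy, z, hz, rfl⟩ := AddSubgroup.mem_sup.mp hu
          obtain ⟨k, rfl⟩ := AddSubgroup.mem_zmultiples_iff.mp hz
          rw [det_add_left, hw y hy, zero_add, ← Int.cast_smul_eq_zsmul (ZMod (p ^ S.n)), det_smul_left,
            det_self, mul_zero]
      have hK' : IsMulCommutative (S.preimage U') := by
        rw [S.comm_iff, S.image_preimage]; exact hU'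
      have := h.2 hK' (fun x hx => (le_sup_left : S.image H ≤ U') ⟨x, hx, rfl⟩)
      exact ⟨g, this (show S.v g ∈ U' from (le_sup_right : _ ≤ U') (AddSubgroup.mem_zmultiples _)), rfl⟩
    have heq : perp (S.image H) = S.image H := le_antisymm hperp hU
    have hc2 := card_mul_card_perp (S.image H)
    rw [heq, S.card_pairs] at hc2
    rw [S.card_of_center_le hZ, S.index_commutator, (Nat.mul_self_inj).mp hc2]
  · intro h
    refine ⟨(S.comm_iff_card H).mpr h.le, fun K hK hle => ?_⟩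
    exact (Subgroup.eq_of_le_of_card_ge hle (h ▸ (S.comm_iff_card K).mp hK)).ge

/-- The multiples of `p^t`. -/
noncomputable def pw (t : ℕ) : AddSubgroup (ZMod (p ^ S.n) × ZMod (p ^ S.n)) :=
  (AddSubgroup.zmultiples ((p : ZMod (p ^ S.n)) ^ t)).prod (AddSubgroup.zmultiples ((p : ZMod (p ^ S.n)) ^ t))

theorem mem_zmultiples_pow (t : ℕ) (x : ZMod (p ^ S.n)) :
    x ∈ AddSubgroup.zmultiples ((p : ZMod (p ^ S.n)) ^ t) ↔ (p : ZMod (p ^ S.n)) ^ t ∣ x := by
  haveI := S.neZero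
  rw [AddSubgroup.mem_zmultiples_iff]
  constructor
  · rintro ⟨k, rfl⟩; exact ⟨k, by rw [zsmul_eq_mul, mul_comm]⟩
  · rintro ⟨c, rfl⟩; exact ⟨(c.val : ℤ), by rw [zsmul_eq_mul, Int.cast_natCast, ZMod.natCast_zmod_val, mul_comm]⟩

theorem card_pw {t : ℕ} (ht : t ≤ S.n) : Nat.card (S.pw t) = p ^ (S.n - t) * p ^ (S.n - t) := by
  haveI := S.neZero
  have h1 : addOrderOf ((p : ZMod (p ^ S.n)) ^ t) = p ^ (S.n - t) := by
    rw [← Nat.cast_pow, ZMod.addOrderOf_coe _ (pow_ne_zero _ S.hp.ne_zero),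
      Nat.gcd_eq_right (pow_dvd_pow p ht), Nat.pow_div ht S.hp.pos]
  rw [pw, Nat.card_congr (AddSubgroup.prodEquiv _ _).toEquiv, Nat.card_prod, Nat.card_zmultiples, h1]

theorem pow_smul_eq_zero {t : ℕ} (ht : t ≤ S.n) (w : ZMod (p ^ S.n) × ZMod (p ^ S.n)) :
    p ^ t • w = 0 ↔ w ∈ S.pw (S.n - t) := by
  haveI := S.neZero
  rw [pw, AddSubgroup.mem_prod, S.mem_zmultiples_pow, S.mem_zmultiples_pow, ← pow_mul_eq_zero S.hp ht,
    ← pow_mul_eq_zero S.hp ht, ← Nat.cast_smul_eq_nsmul (ZMod (p ^ S.n)), Prod.ext_iff, Nat.cast_pow]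
  rfl

theorem centralizer_singleton (g : G) :
    Subgroup.centralizer ({g} : Set G) = S.preimage (haveI := S.neZero; perp (AddSubgroup.zmultiples (S.v g))) := by
  haveI := S.neZero
  ext x
  rw [Subgroup.mem_centralizer_singleton_iff, S.mem_preimage, mem_perp]
  constructor
  · intro h u hu
    obtain ⟨k, rfl⟩ := AddSubgroup.mem_zmultiples_iff.mp hu
    have h1 : det (S.v g) (S.v x) = 0 := (S.commute_iff g x).mp h.symm
    rw [← Int.cast_smul_eq_zsmul (ZMod (p ^ S.n)), det_smul_left, h1, mul_zero]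
  · intro h
    exact ((S.commute_iff g x).mpr (h _ (AddSubgroup.mem_zmultiples _))).eq.symm

theorem index_centralizer (g : G) : (Subgroup.centralizer ({g} : Set G)).index = addOrderOf (S.v g) := by
  haveI := S.neZero
  have h1 := Subgroup.card_mul_index (Subgroup.centralizer ({g} : Set G))
  rw [S.centralizer_singleton] at h1 ⊢
  rw [S.card_preimage] at h1
  have h2 := card_mul_card_perp (AddSubgroup.zmultiples (S.v g))
  rw [S.card_pairs, Nat.card_zmultiples] at h2
  rw [← S.card_mul_index_center, ← h2] at h1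
  refine Nat.eq_of_mul_eq_mul_left (Nat.mul_pos (Nat.card_pos (α := perp (AddSubgroup.zmultiples (S.v g)))) (Nat.card_pos (α := Subgroup.center G))) ?_
  rw [h1]; ring

theorem index_centralizer_le_iff (g : G) {i : ℕ} (hi : i ≤ S.n) :
    (Subgroup.centralizer ({g} : Set G)).index ≤ p ^ i ↔ g ∈ S.preimage (S.pw (S.n - i)) := by
  rw [S.index_centralizer, S.mem_preimage, ← S.pow_smul_eq_zero hi, ← addOrderOf_dvd_iff_nsmul_eq_zero]
  have hd : addOrderOf (S.v g) ∣ p ^ S.n := by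
    rw [addOrderOf_dvd_iff_nsmul_eq_zero, S.pow_smul_eq_zero le_rfl, Nat.sub_self, pw, AddSubgroup.mem_prod,
      S.mem_zmultiples_pow, S.mem_zmultiples_pow, pow_zero]
    exact ⟨one_dvd _, one_dvd _⟩
  obtain ⟨j, -, hj⟩ := (Nat.dvd_prime_pow S.hp).mp hd
  rw [hj, Nat.pow_le_pow_iff_right S.hp.one_lt, Nat.pow_dvd_pow_iff_le_right S.hp.one_lt]

theorem closure_pow {t : ℕ} (ht : t ≤ S.n) :
    Subgroup.closure {x : G | ∃ y : G, y ^ p ^ t = x} = S.preimage (S.pw t) := by
  haveI := S.neZero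
  apply le_antisymm
  · rw [Subgroup.closure_le]
    rintro _ ⟨y, rfl⟩
    obtain ⟨x, hx, hk⟩ := S.v_pow y
    obtain ⟨q, hq⟩ := (dvd_geo_iff S.hp S.hp2 hx (p ^ t) t).mpr dvd_rfl
    rw [SetLike.mem_coe, S.mem_preimage, hk, hq, pw, AddSubgroup.mem_prod, S.mem_zmultiples_pow, S.mem_zmultiples_pow]
    push_cast
    exact ⟨dvd_mul_of_dvd_left (dvd_mul_right _ _) _, dvd_mul_of_dvd_left (dvd_mul_right _ _) _⟩
  · set K := Subgroup.closure {x : G | ∃ y : G, y ^ p ^ t = x}
    have hZ : Subgroup.center G ≤ K := by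
      intro z hz
      obtain ⟨i, j, rfl⟩ := S.center_mem z hz
      have hpow : ∀ g : G, g ^ p ^ S.n ∈ K := fun g => Subgroup.subset_closure ⟨g ^ p ^ (S.n - t), by
        rw [← pow_mul, ← pow_add, Nat.sub_add_cancel ht]⟩
      exact K.mul_mem (K.pow_mem (hpow _) _) (K.pow_mem (hpow _) _)
    rw [← S.preimage_image hZ]
    intro g hg
    rw [S.mem_preimage] at hg ⊢
    rcases ht.lt_or_eq with hlt | rfl
    · rw [pw, AddSubgroup.mem_prod, S.mem_zmultiples_pow, S.mem_zmultiples_pow] at hg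
      obtain ⟨⟨c1, hc1⟩, ⟨c2, hc2⟩⟩ := hg
      obtain ⟨y, hy⟩ := S.v_surjective (c1, c2)
      obtain ⟨x, hx, hk⟩ := S.v_pow y
      obtain ⟨q, hq⟩ := (dvd_geo_iff S.hp S.hp2 hx (p ^ t) t).mpr dvd_rfl
      have hqp : ¬ p ∣ q := by
        intro hh
        have : p ^ (t + 1) ∣ geo x (p ^ t) := by rw [hq, pow_succ]; exact mul_dvd_mul_left _ hh
        rw [dvd_geo_iff S.hp S.hp2 hx, Nat.pow_dvd_pow_iff_le_right S.hp.one_lt] at this
        omega
      have hqu : IsUnit (q : ZMod (p ^ S.n)) := (ZMod.isUnit_iff_coprime _ _).mpr ((S.hp.coprime_iff_not_dvd.mpr hqp).symm.pow_right _)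
      obtain ⟨qu, hqu⟩ := hqu
      have hmem : S.v (y ^ p ^ t) ∈ S.image K := ⟨_, Subgroup.subset_closure ⟨y, rfl⟩, rfl⟩
      have h1 := smul_mem (↑qu⁻¹ : ZMod (p ^ S.n)) hmem
      rw [hk, hq, hy, smul_smul, Nat.cast_mul, ← hqu, mul_comm (↑qu⁻¹ : ZMod (p ^ S.n)), mul_assoc, Units.mul_inv, mul_one, Nat.cast_pow] at h1
      have h2 : S.v g = (p : ZMod (p ^ S.n)) ^ t • ((c1, c2) : ZMod (p ^ S.n) × ZMod (p ^ S.n)) := by
        ext <;> simp [hc1, hc2]
      exact h2 ▸ h1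
    · have h0 : S.v g = 0 := by
        have := (S.pow_smul_eq_zero (Nat.zero_le S.n) (S.v g)).mpr (by rwa [Nat.sub_zero])
        simpa using this
      rw [h0]; exact (S.image K).zero_mem

theorem card_mul_centralizer (R : Subgroup G) :
    Nat.card R * Nat.card (Subgroup.centralizer (R : Set G)) * Nat.card (Subgroup.center G) =
      Nat.card (R ⊓ Subgroup.center G : Subgroup G) * (Nat.card G * Nat.card (Subgroup.center G)) := by
  haveI := S.neZero
  rw [S.centralizer_eq, S.card_preimage, S.card_eq R, ← S.card_mul_index_center]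
  have hc := card_mul_card_perp (S.image R)
  rw [S.card_pairs] at hc
  rw [← hc]; ring

end CfsgLib.Metacyclic.Setting
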